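import Cfsg.Agent.S0034
import Cfsg.Agent.S0035
import Cfsg.Agent.S4252
import Cfsg.Prelude.Def_LieExceptional

set_option autoImplicit false

namespace Cfsg.Agent.Lib.Helper29.Zass

/-- Frobenius' theorem for a transitive action in which non-identity elements fix at most one point -/
theorem frob_action {G Ω : Type*} [Group G] [Finite G] [Finite Ω] [MulAction G Ω]
    (hΩ : 1 < Nat.card Ω)
    (htrans : ∀ α β : Ω, ∃ g : G, g • α = β) (hnreg : ∃ g : G, g ≠ 1 ∧ ∃ α : Ω, g • α = α)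
    (hfix : ∀ g : G, g ≠ 1 → ∀ α β : Ω, g • α = α → g • β = β → α = β) :
    ∃ K : Subgroup G, K.Normal ∧ (∀ g, g ∈ K ↔ g = 1 ∨ ∀ ω : Ω, g • ω ≠ ω) ∧
      Nat.card K = Nat.card Ω := by
  have := Fintype.ofFinite Ω
  have hne : Nonempty Ω := by
    by_contra h
    rw [not_nonempty_iff] at h
    simp at hΩ
  obtain ⟨α⟩ := hne
  obtain ⟨h1, h2⟩ := Cfsg.Agent.S4252.result (by rwa [← Nat.card_eq_fintype_card]) htrans hnreg hfix α
  obtain ⟨N, hN, hNn, -⟩ := Cfsg.Agent.S0035.result _ h1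
  refine ⟨N, hNn, ?_, ?_⟩
  · intro g
    have : g ∈ N ↔ g ∈ (N : Set G) := Iff.rfl
    rw [this, hN, h2]
    rfl
  · have h3 := (Cfsg.Agent.S0034.result _ h1).1
    have : MulAction.IsPretransitive G Ω := ⟨htrans⟩
    rw [MulAction.index_stabilizer_of_transitive] at h3
    rw [← h3, ← hN]
    rfl

section

variable {G Ω : Type*} [Group G] [MulAction G Ω]

theorem two_trans (hZ : Cfsg.IsZassenhausGroup G Ω) {a b c d : Ω} (hab : a ≠ b) (hcd : c ≠ d) :
    ∃ g : G, g • a = c ∧ g • b = d :=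
  (MulAction.is_two_pretransitive_iff.1 hZ.2.1) hab hcd

theorem three_fix (hZ : Cfsg.IsZassenhausGroup G Ω) {g : G} {a b c : Ω} (hab : a ≠ b) (hbc : b ≠ c)
    (hac : a ≠ c) (h1 : g • a = a) (h2 : g • b = b) (h3 : g • c = c) : g = 1 :=
  hZ.2.2.1 g a b c hab hbc hac h1 h2 h3

theorem finite_group [Finite Ω] (hZ : Cfsg.IsZassenhausGroup G Ω) : Finite G := by
  have := hZ.1
  exact Finite.of_injective (MulAction.toPermHom G Ω) MulAction.toPerm_injective

/-- a non-identity element moves some point -/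
theorem exists_moved (hZ : Cfsg.IsZassenhausGroup G Ω) {g : G} (hg : g ≠ 1) : ∃ c : Ω, g • c ≠ c := by
  have := hZ.1
  by_contra h
  push Not at h
  exact hg (FaithfulSMul.eq_of_smul_eq_smul (α := Ω) (fun c => by rw [h c, one_smul]))

/-- every pair of distinct points is fixed by some non-identity element -/
theorem exists_two_fix (hZ : Cfsg.IsZassenhausGroup G Ω) {a b : Ω} (hab : a ≠ b) :
    ∃ g : G, g ≠ 1 ∧ g • a = a ∧ g • b = b := by
  obtain ⟨g, hg, x, y, hxy, hx, hy⟩ := hZ.2.2.2.1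
  obtain ⟨t, hta, htb⟩ := two_trans hZ hxy hab
  refine ⟨t * g * t⁻¹, ?_, ?_, ?_⟩
  · intro h
    apply hg
    have := congrArg (fun z => t⁻¹ * z * t) h
    simpa [mul_assoc] using this
  · rw [← hta, mul_smul, mul_smul, inv_smul_smul, hx]
  · rw [← htb, mul_smul, mul_smul, inv_smul_smul, hy]

/-- there are at least three points; more precisely any two points have a third one -/
theorem exists_third (hZ : Cfsg.IsZassenhausGroup G Ω) {a b : Ω} (hab : a ≠ b) :
    ∃ c : Ω, c ≠ a ∧ c ≠ b := by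
  obtain ⟨g, hg, ha, hb⟩ := exists_two_fix hZ hab
  obtain ⟨c, hc⟩ := exists_moved hZ hg
  exact ⟨c, fun h => hc (h ▸ ha), fun h => hc (h ▸ hb)⟩

theorem exists_ne (hZ : Cfsg.IsZassenhausGroup G Ω) (a : Ω) : ∃ b : Ω, b ≠ a := by
  obtain ⟨g, hg, x, y, hxy, hx, hy⟩ := hZ.2.2.2.1
  by_cases h : x = a
  · exact ⟨y, fun h' => hxy (h.trans h'.symm)⟩
  · exact ⟨x, h⟩

/-- the Frobenius kernel of a point stabiliser -/
theorem exists_kernel [Finite Ω] (hZ : Cfsg.IsZassenhausGroup G Ω) (a : Ω) :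
    ∃ K : Subgroup G, K ≤ MulAction.stabilizer G a ∧
      (∀ g ∈ MulAction.stabilizer G a, ∀ k ∈ K, g * k * g⁻¹ ∈ K) ∧
      (∀ g, g ∈ K ↔ g • a = a ∧ (g = 1 ∨ ∀ c, g • c = c → c = a)) ∧
      Nat.card K + 1 = Nat.card Ω := by
  have hfin := finite_group hZ
  obtain ⟨b, hba⟩ := exists_ne hZ a
  obtain ⟨c, hca, hcb⟩ := exists_third hZ hba.symm
  have hcard := SubMulAction.nat_card_ofStabilizer_add_one_eq (G := G) a
  obtain ⟨K, hKn, hK, hKc⟩ := frob_action (G := MulAction.stabilizer G a)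
    (Ω := SubMulAction.ofStabilizer G a) (by
      rw [Finite.one_lt_card_iff_nontrivial]
      exact ⟨⟨b, hba⟩, ⟨c, hca⟩, fun h => hcb (congrArg Subtype.val h).symm⟩)
    (by
      rintro ⟨x, hx⟩ ⟨y, hy⟩
      obtain ⟨g, h1, h2⟩ := two_trans hZ (Ne.symm hx) (Ne.symm hy)
      exact ⟨⟨g, h1⟩, Subtype.ext h2⟩)
    (by
      obtain ⟨g, hg, h1, h2⟩ := exists_two_fix hZ hba.symm
      exact ⟨⟨g, h1⟩, fun h => hg (congrArg Subtype.val h), ⟨b, hba⟩, Subtype.ext h2⟩)
    (by
      rintro ⟨g, hg⟩ hg1 ⟨x, hx⟩ ⟨y, hy⟩ h1 h2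
      by_contra hxy
      apply hg1
      apply Subtype.ext
      exact three_fix hZ (Ne.symm hx) (fun h => hxy (Subtype.ext h)) (Ne.symm hy) hg
        (congrArg Subtype.val h1) (congrArg Subtype.val h2))
  refine ⟨K.map (MulAction.stabilizer G a).subtype, ?_, ?_, ?_, ?_⟩
  · rintro _ ⟨k, -, rfl⟩
    exact k.2
  · rintro g hg _ ⟨k, hk, rfl⟩
    exact ⟨⟨g, hg⟩ * k * ⟨g, hg⟩⁻¹, hKn.conj_mem k hk _, rfl⟩
  · intro g
    constructor
    · rintro ⟨k, hk, rfl⟩
      refine ⟨k.2, ?_⟩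
      rcases (hK k).1 hk with h | h
      · left
        rw [h]; rfl
      · right
        intro x hx
        by_contra hxa
        exact h ⟨x, hxa⟩ (Subtype.ext hx)
    · rintro ⟨hga, h⟩
      refine ⟨⟨g, hga⟩, (hK _).2 ?_, rfl⟩
      rcases h with h | h
      · left
        exact Subtype.ext h
      · right
        rintro ⟨x, hx⟩ hgx
        exact hx (h x (congrArg Subtype.val hgx))
  · rw [← hcard, ← hKc]
    congr 1
    exact Nat.card_congr (Subgroup.equivMapOfInjective K _ Subtype.val_injective).symm.toEquiv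

/-- the fixed points of a non-identity element fixing `a ≠ b` -/
theorem fix_two (hZ : Cfsg.IsZassenhausGroup G Ω) {y : G} (hy : y ≠ 1) {a b c : Ω} (hab : a ≠ b)
    (ha : y • a = a) (hb : y • b = b) (hc : y • c = c) : c = a ∨ c = b := by
  by_contra h
  push Not at h
  exact hy (three_fix hZ hab h.2.symm h.1.symm ha hb hc)

theorem perm_pair (hZ : Cfsg.IsZassenhausGroup G Ω) {y g : G} (hy : y ≠ 1) {a b : Ω} (hab : a ≠ b)
    (ha : y • a = a) (hb : y • b = b) (hga : y • (g • a) = g • a) (hgb : y • (g • b) = g • b) :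
    (g • a = a ∧ g • b = b) ∨ (g • a = b ∧ g • b = a) := by
  have hne : g • a ≠ g • b := fun h => hab (smul_left_cancel g h)
  rcases fix_two hZ hy hab ha hb hga with h1 | h1 <;> rcases fix_two hZ hy hab ha hb hgb with h2 | h2
  · exact absurd (h1.trans h2.symm) hne
  · exact Or.inl ⟨h1, h2⟩
  · exact Or.inr ⟨h1, h2⟩
  · exact absurd (h1.trans h2.symm) hne

theorem conj_mem_two {g h : G} {a b : Ω}
    (hg : (g • a = a ∧ g • b = b) ∨ (g • a = b ∧ g • b = a))
    (hh : h ∈ MulAction.stabilizer G a ⊓ MulAction.stabilizer G b) :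
    g * h * g⁻¹ ∈ MulAction.stabilizer G a ⊓ MulAction.stabilizer G b := by
  have h1 : h • a = a := hh.1
  have h2 : h • b = b := hh.2
  rw [Subgroup.mem_inf]
  rcases hg with ⟨e1, e2⟩ | ⟨e1, e2⟩
  · constructor
    · rw [MulAction.mem_stabilizer_iff]
      conv_lhs => rw [← e1]
      rw [mul_smul, mul_smul, inv_smul_smul, h1, e1]
    · rw [MulAction.mem_stabilizer_iff]
      conv_lhs => rw [← e2]
      rw [mul_smul, mul_smul, inv_smul_smul, h2, e2]
  · constructor
    · rw [MulAction.mem_stabilizer_iff]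
      conv_lhs => rw [← e2]
      rw [mul_smul, mul_smul, inv_smul_smul, h2, e2]
    · rw [MulAction.mem_stabilizer_iff]
      conv_lhs => rw [← e1]
      rw [mul_smul, mul_smul, inv_smul_smul, h1, e1]

theorem perm_pair_inv {g : G} {a b : Ω}
    (hg : (g • a = a ∧ g • b = b) ∨ (g • a = b ∧ g • b = a)) :
    (g⁻¹ • a = a ∧ g⁻¹ • b = b) ∨ (g⁻¹ • a = b ∧ g⁻¹ • b = a) := by
  rcases hg with ⟨e1, e2⟩ | ⟨e1, e2⟩
  · exact Or.inl ⟨by rw [inv_smul_eq_iff, e1], by rw [inv_smul_eq_iff, e2]⟩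
  · exact Or.inr ⟨by rw [inv_smul_eq_iff, e2], by rw [inv_smul_eq_iff, e1]⟩

/-- the normaliser of a two point stabiliser is the setwise stabiliser of the pair -/
theorem mem_normalizer_two_iff (hZ : Cfsg.IsZassenhausGroup G Ω) {a b : Ω} (hab : a ≠ b) (g : G) :
    g ∈ Subgroup.normalizer ((MulAction.stabilizer G a ⊓ MulAction.stabilizer G b : Subgroup G) : Set G) ↔
      (g • a = a ∧ g • b = b) ∨ (g • a = b ∧ g • b = a) := by
  constructor
  · intro hg
    obtain ⟨x, hx1, hxa, hxb⟩ := exists_two_fix hZ hab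
    have h1 := (Subgroup.mem_normalizer_iff.1 hg x).1 ⟨hxa, hxb⟩
    have hy1 : g * x * g⁻¹ ≠ 1 := by
      intro h
      apply hx1
      have := congrArg (fun z => g⁻¹ * z * g) h
      simpa [mul_assoc] using this
    exact perm_pair hZ hy1 hab h1.1 h1.2
      (by rw [mul_smul, mul_smul, inv_smul_smul, hxa]) (by rw [mul_smul, mul_smul, inv_smul_smul, hxb])
  · intro hg
    rw [Subgroup.mem_normalizer_iff]
    intro h
    constructor
    · exact conj_mem_two hg
    · intro hh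
      have := conj_mem_two (perm_pair_inv hg) hh
      have e : g⁻¹ * (g * h * g⁻¹) * g⁻¹⁻¹ = h := by group
      rwa [e] at this

theorem pow_swap {t : G} {a b : Ω} (hta : t • a = b) (htb : t • b = a) (n : ℕ) :
    (Odd n → t ^ n • a = b ∧ t ^ n • b = a) ∧ (Even n → t ^ n • a = a ∧ t ^ n • b = b) := by
  induction n with
  | zero => simp
  | succ n ih =>
    constructor
    · intro hn
      have hn' : Even n := by
        rcases Nat.even_or_odd n with h | h
        · exact h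
        · exact absurd (h.add_one) (by simpa using hn)
      obtain ⟨e1, e2⟩ := ih.2 hn'
      rw [pow_succ', mul_smul, mul_smul, e1, e2]
      exact ⟨hta, htb⟩
    · intro hn
      have hn' : Odd n := by
        rcases Nat.even_or_odd n with h | h
        · exact absurd (h.add_one) (by simpa using hn)
        · exact h
      obtain ⟨e1, e2⟩ := ih.1 hn'
      rw [pow_succ', mul_smul, mul_smul, e1, e2]
      exact ⟨htb, hta⟩

/-- the number of fixed points of an involution has the parity of the degree -/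
theorem card_fixedBy_modEq [Finite Ω] {s : G} (hs : s * s = 1) :
    Nat.card Ω ≡ Nat.card (MulAction.fixedBy Ω s) [MOD 2] := by
  classical
  have := Fintype.ofFinite Ω
  have : Fact (Nat.Prime 2) := ⟨Nat.prime_two⟩
  let f : Function.End Ω := fun x => s • x
  have hf : f ^ 2 ^ 1 = 1 := by
    rw [pow_one, sq]
    funext x
    show s • s • x = x
    rw [← mul_smul, hs, one_smul]
  have h := Equiv.Perm.card_fixedPoints_modEq (α := Ω) (f := f) (p := 2) (n := 1) hf
  rw [Nat.card_eq_fintype_card, Nat.card_eq_fintype_card]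
  have e : MulAction.fixedBy Ω s = Function.fixedPoints f := rfl
  convert h

theorem card_fixedBy_le [Finite Ω] (hZ : Cfsg.IsZassenhausGroup G Ω) {s : G} (hs : s ≠ 1) :
    Nat.card (MulAction.fixedBy Ω s) ≤ 2 := by
  have := Fintype.ofFinite (MulAction.fixedBy Ω s)
  by_contra h
  push Not at h
  rw [Nat.card_eq_fintype_card, Fintype.two_lt_card_iff] at h
  obtain ⟨x, y, z, hxy, hxz, hyz⟩ := h
  exact hs (three_fix hZ (fun h => hxy (Subtype.ext h)) (fun h => hyz (Subtype.ext h))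
    (fun h => hxz (Subtype.ext h)) x.2 y.2 z.2)

/-- an involution can be conjugated so as to swap two given points -/
theorem exists_conj_swap (hZ : Cfsg.IsZassenhausGroup G Ω) {t : G} (ht1 : t ≠ 1) (ht : t * t = 1)
    {a b : Ω} (hab : a ≠ b) : ∃ x : G, (x * t * x⁻¹) • a = b ∧ (x * t * x⁻¹) • b = a := by
  obtain ⟨c, hc⟩ := exists_moved hZ ht1
  obtain ⟨x, hx1, hx2⟩ := two_trans hZ hc.symm hab
  refine ⟨x, ?_, ?_⟩
  · rw [← hx1, mul_smul, mul_smul, inv_smul_smul, hx2]
  · rw [← hx2, mul_smul, mul_smul, inv_smul_smul, ← mul_smul t, ht, one_smul, hx1]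

theorem even_card [Finite G] (hZ : Cfsg.IsZassenhausGroup G Ω) : 2 ∣ Nat.card G := by
  obtain ⟨g, hg, x, y, hxy, hx, hy⟩ := hZ.2.2.2.1
  obtain ⟨t, hta, htb⟩ := two_trans hZ hxy hxy.symm
  refine dvd_trans ?_ (orderOf_dvd_natCard t)
  rw [← even_iff_two_dvd]
  by_contra h
  rw [Nat.not_even_iff_odd] at h
  have := ((pow_swap hta htb (orderOf t)).1 h).1
  rw [pow_orderOf_eq_one, one_smul] at this
  exact hxy this

theorem orderOf_conj (x t : G) : orderOf (x * t * x⁻¹) = orderOf t := by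
  have : x * t * x⁻¹ = MulAut.conj x t := rfl
  rw [this, MulEquiv.orderOf_eq]

end

end Cfsg.Agent.Lib.Helper29.Zass
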