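import Cfsg.Agent.Lib.Helper29.Zass

set_option autoImplicit false

namespace Cfsg.Agent.Lib.Helper29.Zass

variable {G Ω : Type*} [Group G] [MulAction G Ω]

/-- `K` is the Frobenius kernel of the stabiliser of `a` -/
structure IsKer (K : Subgroup G) (a : Ω) : Prop where
  le : K ≤ MulAction.stabilizer G a
  norm : ∀ g ∈ MulAction.stabilizer G a, ∀ k ∈ K, g * k * g⁻¹ ∈ K
  mem : ∀ g, g ∈ K ↔ g • a = a ∧ (g = 1 ∨ ∀ c, g • c = c → c = a)
  card : Nat.card K + 1 = Nat.card Ω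

theorem exists_isKer [Finite Ω] (hZ : Cfsg.IsZassenhausGroup G Ω) (a : Ω) :
    ∃ K : Subgroup G, IsKer K a := by
  obtain ⟨K, h1, h2, h3, h4⟩ := exists_kernel hZ a
  exact ⟨K, h1, h2, h3, h4⟩

theorem IsKer.eq_one {K : Subgroup G} {a : Ω} (hK : IsKer K a) {k : G} (hk : k ∈ K) {c : Ω}
    (hca : c ≠ a) (hc : k • c = c) : k = 1 := by
  rcases ((hK.mem k).1 hk).2 with h | h
  · exact h
  · exact absurd (h c hc) hca

theorem IsKer.fix {K : Subgroup G} {a : Ω} (hK : IsKer K a) {k : G} (hk : k ∈ K) : k • a = a :=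
  hK.le hk

/-- the kernel is regular on the remaining points -/
theorem IsKer.trans [Finite Ω] {K : Subgroup G} {a : Ω} (hK : IsKer K a) {c d : Ω} (hc : c ≠ a)
    (hd : d ≠ a) : ∃ k ∈ K, k • c = d := by
  have hfinK : Finite K := by
    apply Nat.finite_of_card_ne_zero
    intro h0
    have h1 := hK.card
    rw [h0] at h1
    have h2 : 1 < Nat.card Ω := by
      rw [Finite.one_lt_card_iff_nontrivial]
      exact ⟨c, a, hc⟩
    omega
  let f : K → {x : Ω // x ≠ a} := fun k => ⟨k.1 • c, fun h => hc (by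
    have := hK.fix k.2
    exact smul_left_cancel k.1 (h.trans this.symm))⟩
  have hf : Function.Injective f := by
    intro k k' h
    have h1 : k.1 • c = k'.1 • c := congrArg Subtype.val h
    have h2 : (k'.1⁻¹ * k.1) • c = c := by rw [mul_smul, h1, inv_smul_smul]
    have h3 := hK.eq_one (K.mul_mem (K.inv_mem k'.2) k.2) hc h2
    apply Subtype.ext
    rw [inv_mul_eq_one] at h3
    exact h3.symm
  have hcard : Nat.card K = Nat.card {x : Ω // x ≠ a} := by
    have h1 := hK.card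
    have h2 : Nat.card {x : Ω // x ≠ a} + 1 = Nat.card Ω := by
      have := Fintype.ofFinite Ω
      classical
      rw [Nat.card_eq_fintype_card, Nat.card_eq_fintype_card, Fintype.card_subtype_compl,
        Fintype.card_subtype_eq]
      have : 0 < Fintype.card Ω := Fintype.card_pos_iff.2 ⟨a⟩
      omega
    omega
  have hbij : Function.Bijective f := (Nat.bijective_iff_injective_and_card f).2 ⟨hf, hcard⟩
  obtain ⟨k, hk⟩ := hbij.2 ⟨d, hd⟩
  exact ⟨k.1, k.2, congrArg Subtype.val hk⟩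

theorem conj_ne_one {g x : G} (hx : x ≠ 1) : g * x * g⁻¹ ≠ 1 := by
  intro h
  apply hx
  have := congrArg (fun z => g⁻¹ * z * g) h
  simpa [mul_assoc] using this

/-- a non-trivial normal subgroup is transitive -/
theorem normal_trans (hZ : Cfsg.IsZassenhausGroup G Ω) (N : Subgroup G) [hNn : N.Normal] (hN : N ≠ ⊥)
    (x y : Ω) : ∃ n ∈ N, n • x = y := by
  by_cases hxy : x = y
  · exact ⟨1, N.one_mem, by rw [one_smul, hxy]⟩
  obtain ⟨n, hn, hn1⟩ := (N.bot_or_exists_ne_one).resolve_left hN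
  obtain ⟨c, hc⟩ := exists_moved hZ hn1
  obtain ⟨g, h1, h2⟩ := two_trans hZ hc.symm hxy
  exact ⟨g * n * g⁻¹, hNn.conj_mem n hn g, by rw [← h1, mul_smul, mul_smul, inv_smul_smul, h2]⟩

/-- a regular normal subgroup does not exist (elementwise form) -/
theorem no_regular_normal (hZ : Cfsg.IsZassenhausGroup G Ω) (M : Subgroup G) (hM : M.Normal)
    (htrans : ∀ x y : Ω, ∃ m ∈ M, m • x = y) (hfree : ∀ m ∈ M, ∀ x : Ω, m • x = x → m = 1) : False := by
  have : MulAction.IsPretransitive M Ω := ⟨fun x y => by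
    obtain ⟨m, hm, h⟩ := htrans x y
    exact ⟨⟨m, hm⟩, h⟩⟩
  obtain ⟨a, ha⟩ := hZ.2.2.2.2 M hM this
  apply ha
  rw [eq_bot_iff]
  intro m hm
  rw [Subgroup.mem_bot]
  exact Subtype.ext (hfree m.1 m.2 a hm)

/-- point stabilisers in a non-trivial normal subgroup are non-trivial -/
theorem normal_stab_ne (hZ : Cfsg.IsZassenhausGroup G Ω) (N : Subgroup G) [hNn : N.Normal]
    (hN : N ≠ ⊥) (a : Ω) : ∃ x ∈ N, x ≠ 1 ∧ x • a = a := by
  by_contra hcon
  push Not at hcon
  apply no_regular_normal hZ N hNn (normal_trans hZ N hN)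
  intro m hm x hx
  by_contra hm1
  obtain ⟨g, -, hg⟩ := normal_trans hZ N hN x a
  exact hcon (g * m * g⁻¹) (hNn.conj_mem m hm g) (conj_ne_one hm1)
    (by rw [← hg, mul_smul, mul_smul, inv_smul_smul, hx])

/-- a non-trivial normal subgroup contains the Frobenius kernels of the point stabilisers and
has non-trivial two point stabilisers -/
theorem kernel_le [Finite Ω] (hZ : Cfsg.IsZassenhausGroup G Ω) (N : Subgroup G) [hNn : N.Normal]
    (hN : N ≠ ⊥) {K : Subgroup G} {a : Ω} (hK : IsKer K a) :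
    K ≤ N ∧ ∃ x ∈ N, x ≠ 1 ∧ x • a = a ∧ ∃ b, b ≠ a ∧ x • b = b := by
  have hfin := finite_group hZ
  have hex : ∃ x ∈ N, x ≠ 1 ∧ x • a = a ∧ ∃ b, b ≠ a ∧ x • b = b := by
    by_contra hcon
    push Not at hcon
    obtain ⟨x₀, hx₀N, hx₀1, hx₀a⟩ := normal_stab_ne hZ N hN a
    obtain ⟨b₀, hb₀⟩ := exists_ne hZ a
    obtain ⟨M, hMn, hM, hMc⟩ := frob_action (G := N) (Ω := Ω)
      (by rw [Finite.one_lt_card_iff_nontrivial]; exact ⟨b₀, a, hb₀⟩)
      (fun α β => by
        obtain ⟨n, hn, h⟩ := normal_trans hZ N hN α β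
        exact ⟨⟨n, hn⟩, h⟩)
      ⟨⟨x₀, hx₀N⟩, fun h => hx₀1 (congrArg Subtype.val h), a, hx₀a⟩
      (by
        rintro ⟨g, hg⟩ hg1 α β h1 h2
        by_contra hαβ
        have h1' : g • α = α := h1
        have h2' : g • β = β := h2
        obtain ⟨t, -, ht⟩ := normal_trans hZ N hN α a
        refine hcon (t * g * t⁻¹) (hNn.conj_mem g hg t)
          (conj_ne_one (fun h => hg1 (Subtype.ext h)))
          (by rw [← ht, mul_smul, mul_smul, inv_smul_smul, h1']) (t • β) ?_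
          (by rw [mul_smul, mul_smul, inv_smul_smul, h2'])
        intro h
        exact hαβ (smul_left_cancel t (ht.trans h.symm)))
    have hfree : ∀ m ∈ M.map N.subtype, ∀ x : Ω, m • x = x → m = 1 := by
      rintro _ ⟨m, hm, rfl⟩ x hx
      rcases (hM m).1 hm with h | h
      · rw [h]; rfl
      · exact absurd hx (h x)
    apply no_regular_normal hZ (M.map N.subtype) _ _ hfree
    · constructor
      rintro _ ⟨m, hm, rfl⟩ g
      refine ⟨⟨g * m.1 * g⁻¹, hNn.conj_mem m.1 m.2 g⟩, (hM _).2 ?_, rfl⟩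
      rcases (hM m).1 hm with h | h
      · left
        apply Subtype.ext
        show g * m.1 * g⁻¹ = 1
        rw [h]
        simp
      · right
        intro ω hω
        have hω' : (g * m.1 * g⁻¹) • ω = ω := hω
        apply h (g⁻¹ • ω)
        show m.1 • g⁻¹ • ω = g⁻¹ • ω
        rw [eq_inv_smul_iff, ← mul_smul, ← mul_smul]
        exact hω'
    · -- transitivity by counting
      have key : ∀ x : Ω, Function.Bijective (fun m : M => m.1.1 • x) := by
        intro x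
        rw [Nat.bijective_iff_injective_and_card]
        refine ⟨?_, hMc⟩
        intro m m' h
        have h1 : m.1.1 • x = m'.1.1 • x := h
        have h2 : (m'.1.1⁻¹ * m.1.1) • x = x := by rw [mul_smul, h1, inv_smul_smul]
        have h3 := hfree (m'.1.1⁻¹ * m.1.1) ⟨m'.1⁻¹ * m.1, M.mul_mem (M.inv_mem m'.2) m.2, rfl⟩ x h2
        rw [inv_mul_eq_one] at h3
        exact Subtype.ext (Subtype.ext h3.symm)
      intro x y
      obtain ⟨m, hm⟩ := (key x).2 y
      exact ⟨m.1.1, ⟨m.1, m.2, rfl⟩, hm⟩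
  refine ⟨?_, hex⟩
  obtain ⟨x, hxN, hx1, hxa, b, hba, hxb⟩ := hex
  have hKN : K ⊓ N = K := by
    apply Subgroup.eq_of_le_of_card_ge inf_le_left
    let f : K → (K ⊓ N : Subgroup G) := fun k => ⟨k.1 * x * k.1⁻¹ * x⁻¹, by
      constructor
      · have h1 : k.1 * x * k.1⁻¹ * x⁻¹ = k.1 * (x * k.1⁻¹ * x⁻¹) := by group
        rw [h1]
        exact K.mul_mem k.2 (hK.norm x hxa _ (K.inv_mem k.2))
      · exact N.mul_mem (hNn.conj_mem x hxN k.1) (N.inv_mem hxN)⟩
    apply Nat.card_le_card_of_injective f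
    intro k k' h
    have h1 : k.1 * x * k.1⁻¹ * x⁻¹ = k'.1 * x * k'.1⁻¹ * x⁻¹ := congrArg Subtype.val h
    have h2 : (k'.1⁻¹ * k.1) * x = x * (k'.1⁻¹ * k.1) := by
      have h3 := mul_right_cancel h1
      calc (k'.1⁻¹ * k.1) * x = k'.1⁻¹ * (k.1 * x * k.1⁻¹) * k.1 := by group
        _ = k'.1⁻¹ * (k'.1 * x * k'.1⁻¹) * k.1 := by rw [h3]
        _ = x * (k'.1⁻¹ * k.1) := by group
    have hkk : k'.1⁻¹ * k.1 ∈ K := K.mul_mem (K.inv_mem k'.2) k.2
    have h4 : x • ((k'.1⁻¹ * k.1) • b) = (k'.1⁻¹ * k.1) • b := by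
      rw [← mul_smul, ← h2, mul_smul, hxb]
    have h5 : (k'.1⁻¹ * k.1) • b = b := by
      rcases fix_two hZ hx1 hba.symm hxa hxb h4 with h | h
      · exfalso
        apply hba
        apply smul_left_cancel (k'.1⁻¹ * k.1)
        rw [h, hK.fix hkk]
      · exact h
    have h6 := hK.eq_one hkk hba h5
    rw [inv_mul_eq_one] at h6
    exact Subtype.ext h6.symm
  rw [← hKN]
  exact inf_le_right

/-- a normal subgroup has no regular normal subgroup either -/
theorem no_regular_sub [Finite Ω] (hZ : Cfsg.IsZassenhausGroup G Ω) (N : Subgroup G) [hNn : N.Normal]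
    (hN : N ≠ ⊥) (M : Subgroup G) (hMN : M ≤ N) (hMnorm : ∀ n ∈ N, ∀ m ∈ M, n * m * n⁻¹ ∈ M)
    (htrans : ∀ x y : Ω, ∃ m ∈ M, m • x = y) (hfree : ∀ m ∈ M, ∀ x : Ω, m • x = x → m = 1) : False := by
  have hfin := finite_group hZ
  apply no_regular_normal hZ M _ htrans hfree
  constructor
  intro m₀ hm₀ g
  by_cases hm₀1 : m₀ = 1
  · rw [hm₀1]; simp
  obtain ⟨-, -, a, -, -, -, -⟩ := hZ.2.2.2.1
  obtain ⟨K, hK⟩ := exists_isKer hZ a
  have hKN := (kernel_le hZ N hN hK).1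
  set M₂ := M.map (MulAut.conj g).toMonoidHom with hM₂
  set y := g * m₀ * g⁻¹ with hy
  have hyM₂ : y ∈ M₂ := ⟨m₀, hm₀, rfl⟩
  have hM₂N : M₂ ≤ N := by
    rintro _ ⟨m, hm, rfl⟩
    exact hNn.conj_mem m (hMN hm) g
  have hM₂norm : ∀ n ∈ N, ∀ z ∈ M₂, n * z * n⁻¹ ∈ M₂ := by
    rintro n hn _ ⟨m, hm, rfl⟩
    refine ⟨(g⁻¹ * n * g⁻¹⁻¹) * m * (g⁻¹ * n * g⁻¹⁻¹)⁻¹, hMnorm _ (hNn.conj_mem n hn g⁻¹) m hm, ?_⟩
    show g * ((g⁻¹ * n * g⁻¹⁻¹) * m * (g⁻¹ * n * g⁻¹⁻¹)⁻¹) * g⁻¹ = n * (g * m * g⁻¹) * n⁻¹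
    group
  have hM₂free : ∀ z ∈ M₂, ∀ x : Ω, z • x = x → z = 1 := by
    rintro _ ⟨m, hm, rfl⟩ x hx
    have hx' : (g * m * g⁻¹) • x = x := hx
    have h1 : m • (g⁻¹ • x) = g⁻¹ • x := by
      rw [eq_inv_smul_iff, ← mul_smul, ← mul_smul]
      exact hx'
    rw [hfree m hm _ h1]
    simp
  have hconj : ∀ z ∈ M, ∀ m' ∈ M, z ≠ 1 → m' ≠ 1 → ∃ k ∈ K, k * z * k⁻¹ = m' := by
    intro z hz m' hm' hz1 hm'1
    obtain ⟨k, hk, hkz⟩ := hK.trans (c := z • a) (d := m' • a) (fun h => hz1 (hfree z hz a h))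
      (fun h => hm'1 (hfree m' hm' a h))
    refine ⟨k, hk, ?_⟩
    have h1 : (m'⁻¹ * (k * z * k⁻¹)) • a = a := by
      have hka : k⁻¹ • a = a := by rw [inv_smul_eq_iff, hK.fix hk]
      rw [mul_smul, mul_smul, mul_smul, hka, hkz, inv_smul_smul]
    have h2 := hfree _ (M.mul_mem (M.inv_mem hm') (hMnorm k (hKN hk) z hz)) a h1
    rw [inv_mul_eq_one] at h2
    exact h2.symm
  by_cases hcase : ∃ z ∈ M, z ∈ M₂ ∧ z ≠ 1
  · obtain ⟨z, hzM, hzM₂, hz1⟩ := hcase
    have hle : M ≤ M₂ := by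
      intro m' hm'
      by_cases hm'1 : m' = 1
      · rw [hm'1]; exact M₂.one_mem
      obtain ⟨k, hk, rfl⟩ := hconj z hzM m' hm' hz1 hm'1
      exact hM₂norm k (hKN hk) z hzM₂
    have heq : M = M₂ := by
      apply Subgroup.eq_of_le_of_card_ge hle
      rw [hM₂]
      exact (Nat.card_congr (Subgroup.equivMapOfInjective M _ (MulAut.conj g).injective).toEquiv).symm.le
    rw [heq]
    exact hyM₂
  · push Not at hcase
    have hcomm : ∀ m' ∈ M, ∀ y' ∈ M₂, y' * m' = m' * y' := by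
      intro m' hm' y' hy'
      have h1 : m' * y' * m'⁻¹ * y'⁻¹ ∈ M := by
        have e : m' * y' * m'⁻¹ * y'⁻¹ = m' * (y' * m'⁻¹ * y'⁻¹) := by group
        rw [e]
        exact M.mul_mem hm' (hMnorm y' (hM₂N hy') _ (M.inv_mem hm'))
      have h2 : m' * y' * m'⁻¹ * y'⁻¹ ∈ M₂ :=
        M₂.mul_mem (hM₂norm m' (hMN hm') y' hy') (M₂.inv_mem hy')
      have h3 := hcase _ h1 h2
      have h4 : m' * y' = y' * m' := by
        have := congrArg (fun t => t * (y' * m')) h3
        simpa [mul_assoc] using this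
      exact h4.symm
    obtain ⟨m, hm, hma⟩ := htrans a (y • a)
    have hy1 : y ≠ 1 := conj_ne_one hm₀1
    have hm1 : m ≠ 1 := by
      rintro rfl
      rw [one_smul] at hma
      exact hy1 (hM₂free y hyM₂ a hma.symm)
    have hx : ∀ m' ∈ M, (m⁻¹ * y) • (m' • a) = (m⁻¹ * m' * m) • a := by
      intro m' hm'
      rw [mul_smul, ← mul_smul y, hcomm m' hm' y hyM₂, mul_smul, ← hma, ← mul_smul, ← mul_smul]
    have hfinal : m⁻¹ * y = 1 → y ∈ M := by
      intro h
      rw [inv_mul_eq_one] at h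
      rw [← h]; exact hm
    apply hfinal
    by_cases hmm : m * m = 1
    · have hall : ∀ m' ∈ M, m' * m' = 1 := by
        intro m' hm'
        by_cases hm'1 : m' = 1
        · rw [hm'1, one_mul]
        obtain ⟨k, hk, rfl⟩ := hconj m hm m' hm' hm1 hm'1
        have e : k * m * k⁻¹ * (k * m * k⁻¹) = k * (m * m) * k⁻¹ := by group
        rw [e, hmm]; group
      by_contra hne
      obtain ⟨c, hc⟩ := exists_moved hZ hne
      apply hc
      obtain ⟨m', hm', rfl⟩ := htrans a c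
      rw [hx m' hm']
      congr 1
      have h1 := hall _ (M.mul_mem hm' hm)
      have h2 := hall m' hm'
      -- `m⁻¹ = m`, and `m m' m = m'`
      have h3 : m⁻¹ = m := by rw [inv_eq_iff_mul_eq_one, hmm]
      rw [h3]
      calc m * m' * m = (m' * m') * (m * m' * m) := by rw [h2, one_mul]
        _ = m' * ((m' * m) * (m' * m)) := by group
        _ = m' := by rw [h1, mul_one]
    · have e0 : (m⁻¹ * y) • a = a := by
        have := hx 1 M.one_mem
        rw [one_smul] at this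
        rw [this]
        simp
      have e1 : (m⁻¹ * y) • (m • a) = m • a := by
        rw [hx m hm]
        simp
      have e2 : (m⁻¹ * y) • ((m * m) • a) = (m * m) • a := by
        rw [hx _ (M.mul_mem hm hm)]
        simp
      refine three_fix hZ (a := a) (b := m • a) (c := (m * m) • a) ?_ ?_ ?_ e0 e1 e2
      · intro h
        exact hm1 (hfree m hm a h.symm)
      · intro h
        rw [mul_smul] at h
        exact hm1 (hfree m hm _ h.symm)
      · intro h
        exact hmm (hfree _ (M.mul_mem hm hm) a h.symm)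

end Cfsg.Agent.Lib.Helper29.Zass
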