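import Mathlib

set_option autoImplicit false

namespace Cfsg.Agent.Lib.Helper29

/-- Criterion for `H` to be maximal in `M`, in terms of subgroups of the ambient group. -/
theorem isCoatom_subgroupOf {G : Type*} [Group G] {H M : Subgroup G} (hle : H ≤ M) (hne : H ≠ M)
    (hmax : ∀ X : Subgroup G, H ≤ X → X ≤ M → X = H ∨ X = M) : IsCoatom (H.subgroupOf M) := by
  constructor
  · intro h
    rw [Subgroup.subgroupOf_eq_top] at h
    exact hne (le_antisymm hle h)
  · intro Y hY
    have h1 : H ≤ Y.map M.subtype := by
      rw [← Subgroup.map_subgroupOf_eq_of_le hle]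
      exact Subgroup.map_mono hY.le
    have h2 : Y.map M.subtype ≤ M := Subgroup.map_subtype_le Y
    rcases hmax _ h1 h2 with h | h
    · exfalso
      rw [← Subgroup.map_subgroupOf_eq_of_le hle] at h
      have := Subgroup.map_injective M.subtype_injective h
      exact hY.ne this.symm
    · rw [eq_top_iff]
      intro x _
      have hx : (x : G) ∈ Y.map M.subtype := by rw [h]; exact x.2
      obtain ⟨y, hy, hyx⟩ := hx
      have : y = x := Subtype.ext hyx
      exact this ▸ hy

/-- An intermediate subgroup shows that `H` is not maximal in `K`. -/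
theorem not_isCoatom_subgroupOf {G : Type*} [Group G] {H Y K : Subgroup G} (h1 : H < Y) (h2 : Y < K) :
    ¬ IsCoatom (H.subgroupOf K) := by
  intro hco
  have hlt : H.subgroupOf K < Y.subgroupOf K := by
    refine lt_of_le_of_ne (Subgroup.comap_mono h1.le) (fun h => ?_)
    rw [Subgroup.subgroupOf_inj, inf_eq_left.mpr (h1.le.trans h2.le), inf_eq_left.mpr h2.le] at h
    exact h1.ne h
  have := hco.2 _ hlt
  rw [Subgroup.subgroupOf_eq_top] at this
  exact absurd this (not_le_of_gt h2)

/-- Maximality of `H` in `M` unfolded in the ambient group. -/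
theorem eq_or_eq_of_isCoatom_subgroupOf {G : Type*} [Group G] {H M : Subgroup G}
    (hco : IsCoatom (H.subgroupOf M)) (X : Subgroup G) (h1 : H ≤ X) (h2 : X ≤ M) : X = H ∨ X = M := by
  by_cases h : X = H
  · exact Or.inl h
  · right
    by_contra h3
    exact not_isCoatom_subgroupOf (lt_of_le_of_ne h1 (Ne.symm h)) (lt_of_le_of_ne h2 h3) hco

end Cfsg.Agent.Lib.Helper29
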