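import Mathlib
import Cfsg.Agent.Lib.Helper29.Zass

set_option autoImplicit false

namespace Cfsg.Agent.Lib.Helper29.Sharp2

open Cfsg.Agent.Lib.Helper29.Zass

variable {G α : Type*} [Group G] [MulAction G α]

/-- the data of the Frobenius kernel of a sharply 2-transitive group -/
structure IsKer (K : Subgroup G) (α : Type*) [MulAction G α] : Prop where
  normal : K.Normal
  mem_iff : ∀ g, g ∈ K ↔ g = 1 ∨ ∀ ω : α, g • ω ≠ ω
  trans : ∀ a b : α, ∃ k ∈ K, k • a = b

theorem IsKer.eq_one {K : Subgroup G} (hK : IsKer K α) {k : G} (hk : k ∈ K) {a : α} (h : k • a = a) : k = 1 := by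
  rcases (hK.mem_iff k).1 hk with h1 | h1
  · exact h1
  · exact absurd h (h1 a)

theorem IsKer.inj {K : Subgroup G} (hK : IsKer K α) {k k' : G} (hk : k ∈ K) (hk' : k' ∈ K) {a : α}
    (h : k • a = k' • a) : k = k' := by
  have := hK.eq_one (K.mul_mem (K.inv_mem hk') hk) (a := a) (by rw [mul_smul, h, inv_smul_smul])
  exact (inv_mul_eq_one.mp this).symm

theorem exists_isKer [Finite G] [Finite α]
    (h2 : ∀ a b c d : α, a ≠ b → c ≠ d → ∃ g : G, g • a = c ∧ g • b = d)
    (hsharp : ∀ (g : G) (a b : α), a ≠ b → g • a = a → g • b = b → g = 1)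
    (hcard : 2 ≤ Nat.card α) : ∃ K : Subgroup G, IsKer K α := by
  have htr : ∀ a b : α, ∃ g : G, g • a = b := by
    intro a b
    by_cases hab : a = b
    · exact ⟨1, by rw [one_smul, hab]⟩
    · obtain ⟨g, hg, _⟩ := h2 a b b a hab (Ne.symm hab)
      exact ⟨g, hg⟩
  by_cases hnreg : ∃ g : G, g ≠ 1 ∧ ∃ a : α, g • a = a
  · obtain ⟨K, hKn, hK, hKc⟩ := frob_action (G := G) (Ω := α) (by omega) htr hnreg (by
      intro g hg a b ha hb
      by_contra hab
      exact hg (hsharp g a b hab ha hb))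
    refine ⟨K, hKn, hK, ?_⟩
    intro a b
    have hinj : Function.Injective (fun k : K => (k : G) • a) := by
      intro k k' h
      have h' : (k : G) • a = (k' : G) • a := h
      have h3 : ((k' : G)⁻¹ * k) • a = a := by rw [mul_smul, h', inv_smul_smul]
      have h4 : (k' : G)⁻¹ * k ∈ K := K.mul_mem (K.inv_mem k'.2) k.2
      rcases (hK _).1 h4 with h5 | h5
      · exact Subtype.ext (inv_mul_eq_one.mp h5).symm
      · exact absurd h3 (h5 a)
    have hbij := hinj.bijective_of_nat_card_le (by rw [hKc])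
    obtain ⟨k, hk⟩ := hbij.2 b
    exact ⟨k, k.2, hk⟩
  · push Not at hnreg
    refine ⟨⊤, inferInstance, ?_, ?_⟩
    · intro g
      simp only [Subgroup.mem_top, true_iff]
      by_cases hg : g = 1
      · exact Or.inl hg
      · exact Or.inr (hnreg g hg)
    · intro a b
      obtain ⟨g, hg⟩ := htr a b
      exact ⟨g, Subgroup.mem_top g, hg⟩

theorem IsKer.conj_trans {K : Subgroup G} (hK : IsKer K α)
    (h2 : ∀ a b c d : α, a ≠ b → c ≠ d → ∃ g : G, g • a = c ∧ g • b = d) (a : α)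
    {k k' : G} (hk : k ∈ K) (hk' : k' ∈ K) (hk1 : k ≠ 1) (hk1' : k' ≠ 1) :
    ∃ g : G, g • a = a ∧ g * k * g⁻¹ = k' := by
  have h1 : a ≠ k • a := fun h => hk1 (hK.eq_one hk h.symm)
  have h1' : a ≠ k' • a := fun h => hk1' (hK.eq_one hk' h.symm)
  obtain ⟨g, hga, hgk⟩ := h2 a (k • a) a (k' • a) h1 h1'
  refine ⟨g, hga, ?_⟩
  apply hK.inj (hK.normal.conj_mem k hk g) hk' (a := a)
  rw [mul_smul, mul_smul]
  have : g⁻¹ • a = a := by rw [inv_smul_eq_iff, hga]
  rw [this, hgk]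

theorem IsKer.card_eq {K : Subgroup G} (hK : IsKer K α) (a : α) : Nat.card K = Nat.card α := by
  refine Nat.card_congr (Equiv.ofBijective (fun k : K => (k : G) • a) ⟨?_, ?_⟩)
  · intro k k' h
    exact Subtype.ext (hK.inj k.2 k'.2 h)
  · intro b
    obtain ⟨k, hk, hb⟩ := hK.trans a b
    exact ⟨⟨k, hk⟩, hb⟩

theorem IsKer.structure [Finite G] [Finite α] {K : Subgroup G} (hK : IsKer K α)
    (h2 : ∀ a b c d : α, a ≠ b → c ≠ d → ∃ g : G, g • a = c ∧ g • b = d)
    (hcard : 2 ≤ Nat.card α) :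
    IsMulCommutative K ∧ ∃ p j : ℕ, p.Prime ∧ 1 ≤ j ∧ Nat.card α = p ^ j ∧ ∀ k ∈ K, k ^ p = 1 := by
  have hne : Nonempty α := by
    by_contra h
    rw [not_nonempty_iff] at h
    rw [Nat.card_of_isEmpty] at hcard
    omega
  obtain ⟨a⟩ := hne
  have hKc := hK.card_eq a
  have hK1 : Nat.card K ≠ 1 := by omega
  obtain ⟨p, hp, hpd⟩ := Nat.exists_prime_and_dvd hK1
  haveI : Fact p.Prime := ⟨hp⟩
  obtain ⟨z, hz⟩ := exists_prime_orderOf_dvd_card' (G := K) p hpd
  have hz1 : (z : G) ≠ 1 := by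
    intro h
    have : z = 1 := Subtype.ext h
    rw [this, orderOf_one] at hz
    exact hp.one_lt.ne hz
  have hzp : (z : G) ^ p = 1 := by
    have := pow_orderOf_eq_one z
    rw [hz] at this
    exact_mod_cast congrArg Subtype.val this
  have hexp : ∀ k ∈ K, k ^ p = 1 := by
    intro k hk
    by_cases hk1 : k = 1
    · rw [hk1, one_pow]
    obtain ⟨g, _, hg⟩ := hK.conj_trans h2 a z.2 hk hz1 hk1
    rw [← hg, conj_pow, hzp]; group
  have hPG : IsPGroup p K := by
    intro k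
    refine ⟨1, ?_⟩
    rw [pow_one]
    exact Subtype.ext (by simpa using hexp k k.2)
  obtain ⟨j, hj⟩ := hPG.exists_card_eq
  have hj1 : 1 ≤ j := by
    rcases Nat.eq_zero_or_pos j with h | h
    · rw [h, pow_zero] at hj; exact absurd hj hK1
    · exact h
  haveI : Nontrivial K := by
    rw [← Finite.one_lt_card_iff_nontrivial]; omega
  have hcen := hPG.center_nontrivial
  obtain ⟨c, hc⟩ := exists_ne (1 : Subgroup.center K)
  have hc1 : ((c : K) : G) ≠ 1 := by
    intro h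
    apply hc
    exact Subtype.ext (Subtype.ext h)
  have hccomm : ∀ m ∈ K, m * ((c : K) : G) = ((c : K) : G) * m := by
    intro m hm
    have := Subgroup.mem_center_iff.mp c.2 ⟨m, hm⟩
    exact congrArg Subtype.val this
  refine ⟨⟨⟨fun x y => ?_⟩⟩, p, j, hp, hj1, by rw [← hKc, hj], hexp⟩
  by_cases hx1 : (x : G) = 1
  · have : x = 1 := Subtype.ext hx1
    rw [this]; simp
  obtain ⟨g, _, hg⟩ := hK.conj_trans h2 a (c : K).2 x.2 hc1 hx1
  apply Subtype.ext
  change (x : G) * y = y * x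
  have hm : g⁻¹ * y * g ∈ K := by
    have := hK.normal.conj_mem y y.2 g⁻¹
    simpa using this
  have h3 := hccomm _ hm
  rw [← hg]
  calc g * ((c : K) : G) * g⁻¹ * y = g * (((c : K) : G) * (g⁻¹ * y * g)) * g⁻¹ := by group
    _ = g * ((g⁻¹ * y * g) * ((c : K) : G)) * g⁻¹ := by rw [h3]
    _ = y * (g * ((c : K) : G) * g⁻¹) := by group

end Cfsg.Agent.Lib.Helper29.Sharp2
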