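import Mathlib
import Cfsg.Agent.Lib.Helper29.Sharp2
import Cfsg.Agent.S0695
import Cfsg.Agent.S0696

set_option autoImplicit false

namespace Cfsg.Agent.Lib.Helper29.MultTrans

open MulAction SubMulAction

variable {G X : Type*} [Group G] [MulAction G X]

theorem succ_of_stab (N : Subgroup G) (a : X) {m : ℕ} (htr : IsPretransitive N X)
    (h : IsMultiplyPretransitive (N.subgroupOf (stabilizer G a)) (ofStabilizer G a) m) :
    IsMultiplyPretransitive N X (m + 1) := by
  rw [SubMulAction.ofStabilizer.isMultiplyPretransitive (a := a)]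
  refine ⟨fun x y => ?_⟩
  let ι : ofStabilizer N a ↪ ofStabilizer G a :=
    ⟨fun z => ⟨z.1, z.2⟩, fun z w hzw => Subtype.ext (congrArg Subtype.val hzw)⟩
  obtain ⟨g, hg⟩ := h.exists_smul_eq (x.trans ι) (y.trans ι)
  refine ⟨⟨⟨g.1.1, g.2⟩, g.1.2⟩, ?_⟩
  ext i
  have := congrArg Subtype.val (DFunLike.congr_fun hg i)
  exact this

theorem faithful_stab [FaithfulSMul G X] (a : X) : FaithfulSMul (stabilizer G a) (ofStabilizer G a) := by
  refine ⟨fun {g h} hgh => ?_⟩
  apply Subtype.ext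
  apply FaithfulSMul.eq_of_smul_eq_smul (α := X)
  intro x
  by_cases hx : x = a
  · rw [hx]
    exact g.2.trans h.2.symm
  · exact congrArg Subtype.val (hgh ⟨x, hx⟩)

theorem finite_of_faithful [FaithfulSMul G X] [Finite X] : Finite G :=
  Finite.of_injective (MulAction.toPermHom G X) MulAction.toPerm_injective

theorem normal_trans [FaithfulSMul G X] [IsPreprimitive G X] (N : Subgroup G) [N.Normal] (hN : N ≠ ⊥) :
    IsPretransitive N X := by
  apply IsQuasiPreprimitive.isPretransitive_of_normal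
  intro h
  apply hN
  rw [Subgroup.eq_bot_iff_forall]
  intro n hn
  apply FaithfulSMul.eq_of_smul_eq_smul (α := X)
  intro x
  have : x ∈ fixedPoints N X := by rw [h]; exact Set.mem_univ x
  rw [one_smul]
  exact this ⟨n, hn⟩

theorem stab_bot_of (N : Subgroup G) (htr : IsPretransitive N X) (a : X)
    (h : ∀ n ∈ N, n • a = a → n = 1) (x : X) : stabilizer N x = ⊥ := by
  rw [Subgroup.eq_bot_iff_forall]
  intro m hm
  obtain ⟨n, hn⟩ := htr.exists_smul_eq a x
  have hn' : (n : G) • a = x := hn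
  have hm' : (m : G) • x = x := hm
  have h1 : ((n : G)⁻¹ * m * n) • a = a := by
    rw [mul_smul, mul_smul, hn', hm', ← hn', inv_smul_smul]
  have h2 := h _ (N.mul_mem (N.mul_mem (N.inv_mem n.2) m.2) n.2) h1
  apply Subtype.ext
  have h3 : (m : G) = n * ((n : G)⁻¹ * m * n) * (n : G)⁻¹ := by group
  rw [h3, h2]; simp

/-- a normal subgroup that is sharply 2-transitive yields a regular normal subgroup. -/
theorem sharp_kernel [Finite X] [FaithfulSMul G X] (N : Subgroup G) [hNn : N.Normal] (a : X)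
    (hcard : 2 ≤ Nat.card X)
    (htr : IsPretransitive N X)
    (htr' : IsPretransitive (N.subgroupOf (stabilizer G a)) (ofStabilizer G a))
    (hsr : ∀ n ∈ N, n • a = a → ∀ y : X, y ≠ a → n • y = y → n = 1) :
    ∃ K : Subgroup G, K.Normal ∧ IsPretransitive K X ∧ ∀ x : X, stabilizer K x = ⊥ := by
  haveI : Finite G := finite_of_faithful (X := X)
  have h2t : IsMultiplyPretransitive N X 2 :=
    succ_of_stab N a htr (is_one_pretransitive_iff.mpr htr')
  have h2 : ∀ a b c d : X, a ≠ b → c ≠ d → ∃ g : N, g • a = c ∧ g • b = d :=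
    fun a b c d hab hcd => is_two_pretransitive_iff.mp h2t hab hcd
  have hsharp : ∀ (g : N) (x y : X), x ≠ y → g • x = x → g • y = y → g = 1 := by
    intro g x y hxy hx hy
    obtain ⟨n, hn⟩ := htr.exists_smul_eq a x
    have hn' : (n : G) • a = x := hn
    have hx' : (g : G) • x = x := hx
    have hy' : (g : G) • y = y := hy
    have h1 : ((n : G)⁻¹ * g * n) • a = a := by
      rw [mul_smul, mul_smul, hn', hx', ← hn', inv_smul_smul]
    have h2' : ((n : G)⁻¹ * g * n) • ((n : G)⁻¹ • y) = (n : G)⁻¹ • y := by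
      rw [mul_smul, mul_smul, smul_inv_smul, hy']
    have h3 : (n : G)⁻¹ • y ≠ a := by
      intro h
      apply hxy
      rw [← hn', ← h, smul_inv_smul]
    have h4 := hsr _ (N.mul_mem (N.mul_mem (N.inv_mem n.2) g.2) n.2) h1 _ h3 h2'
    apply Subtype.ext
    have h5 : (g : G) = n * ((n : G)⁻¹ * g * n) * (n : G)⁻¹ := by group
    rw [h5, h4]; simp
  obtain ⟨K₀, hK₀⟩ := Sharp2.exists_isKer h2 hsharp hcard
  refine ⟨K₀.map N.subtype, ⟨?_⟩, ⟨?_⟩, ?_⟩
  · rintro _ ⟨k, hk, rfl⟩ g
    refine ⟨⟨g * k * g⁻¹, hNn.conj_mem k k.2 g⟩, ?_, rfl⟩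
    rw [SetLike.mem_coe, hK₀.mem_iff] at hk ⊢
    rcases hk with hk | hk
    · left
      apply Subtype.ext
      simp [hk]
    · right
      intro ω hω
      have hω' : (g * k * g⁻¹) • ω = ω := hω
      apply hk (g⁻¹ • ω)
      change (k : G) • (g⁻¹ • ω) = g⁻¹ • ω
      rw [eq_inv_smul_iff, ← mul_smul, ← mul_smul]
      exact hω'
  · intro x y
    obtain ⟨k, hk, hxy⟩ := hK₀.trans x y
    exact ⟨⟨k, ⟨k, hk, rfl⟩⟩, hxy⟩
  · intro x
    rw [Subgroup.eq_bot_iff_forall]
    rintro ⟨_, ⟨k, hk, rfl⟩⟩ hkx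
    apply Subtype.ext
    have : k = 1 := hK₀.eq_one hk (a := x) hkx
    simp [this]

end Cfsg.Agent.Lib.Helper29.MultTrans
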