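import Mathlib
import Cfsg.Agent.Lib.Helper29.MultTrans

set_option autoImplicit false

namespace Cfsg.Agent.Lib.Helper29.JordanN

open MulAction SubMulAction Cfsg.Agent.Lib.Helper29.MultTrans

theorem enat_le {X : Type*} [Finite X] {n : ℕ} (h : n ≤ Nat.card X) : (n : ℕ∞) ≤ ENat.card X := by
  haveI := Fintype.ofFinite X
  rw [ENat.card_eq_coe_fintype_card, ← Nat.card_eq_fintype_card]
  exact_mod_cast h

/-- Jordan's theorem on normal subgroups of multiply transitive groups -/
theorem jordan (k : ℕ) : ∀ {G X : Type*} [Group G] [MulAction G X] [Finite X] [FaithfulSMul G X],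
    2 ≤ k → k < Nat.card X → IsMultiplyPretransitive G X k →
    ∀ (N : Subgroup G) [N.Normal], N ≠ ⊥ →
      IsMultiplyPretransitive N X (k - 1) ∨
        (k = 3 ∧ (∀ x : X, stabilizer N x = ⊥) ∧ ∀ n ∈ N, n ^ 2 = 1) := by
  induction k with
  | zero => intro G X _ _ _ _ hk; omega
  | succ k ih =>
    intro G X _ _ _ _ hk hcard hG N _ hN
    haveI := Fintype.ofFinite X
    haveI := hG
    have h2tr : IsMultiplyPretransitive G X 2 := isMultiplyPretransitive_of_le (n := k + 1) hk hcard.le
    haveI hprim : IsPreprimitive G X := isPreprimitive_of_is_two_pretransitive h2tr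
    have hNtr : IsPretransitive N X := normal_trans N hN
    by_cases hk2 : k + 1 = 2
    · left
      have : k + 1 - 1 = 1 := by omega
      rw [this]
      exact is_one_pretransitive_iff.mpr hNtr
    have hk3 : 2 ≤ k := by omega
    obtain ⟨a⟩ : Nonempty X := by
      by_contra hne
      rw [not_nonempty_iff] at hne
      rw [Nat.card_of_isEmpty] at hcard
      omega
    have hkprim : IsMultiplyPreprimitive G X k :=
      isMultiplyPreprimitive_of_isMultiplyPretransitive_succ G X (enat_le hcard.le)
    have hcF : Nat.card X = Fintype.card X := Nat.card_eq_fintype_card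
    by_cases hreg : ∀ n ∈ N, n • a = a → n = 1
    · right
      have hreg' := stab_bot_of N hNtr a hreg
      have h2p : IsMultiplyPreprimitive G X 2 := isMultiplyPreprimitive_of_le G X hkprim hk3 (enat_le (by omega))
      have hk' : k + 1 = 3 := by
        by_contra hne
        have h3p : IsMultiplyPreprimitive G X 3 :=
          isMultiplyPreprimitive_of_le G X hkprim (by omega) (enat_le (by omega))
        rcases Cfsg.Agent.S0696.result (by omega) h3p N hNtr hreg' with h | h <;> omega
      refine ⟨hk', hreg', ?_⟩
      rcases Cfsg.Agent.S0695.result (by omega) h2p N hNtr hreg' with h | h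
      · omega
      · exact h.2.1
    · push Not at hreg
      obtain ⟨n₀, hn₀N, hn₀a, hn₀1⟩ := hreg
      have hc := SubMulAction.nat_card_ofStabilizer_add_one_eq (G := G) a
      haveI := faithful_stab (G := G) a
      have hGa : IsMultiplyPretransitive (stabilizer G a) (ofStabilizer G a) k :=
        SubMulAction.ofStabilizer.isMultiplyPretransitive.mp hG
      have hN' : N.subgroupOf (stabilizer G a) ≠ ⊥ := by
        intro h
        have : (⟨n₀, hn₀a⟩ : stabilizer G a) ∈ N.subgroupOf (stabilizer G a) := hn₀N
        rw [h, Subgroup.mem_bot] at this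
        exact hn₀1 (congrArg Subtype.val this)
      rcases ih hk3 (by omega) hGa (N.subgroupOf (stabilizer G a)) hN' with h | ⟨hk', hsr, _⟩
      · left
        have h1 := succ_of_stab N a hNtr h
        have h2 : k - 1 + 1 = k + 1 - 1 := by omega
        rwa [h2] at h1
      · exfalso
        haveI := hGa
        have h2tr' : IsMultiplyPretransitive (stabilizer G a) (ofStabilizer G a) 2 :=
          isMultiplyPretransitive_of_le (n := k) hk3 (by omega)
        haveI hprim' : IsPreprimitive (stabilizer G a) (ofStabilizer G a) :=
          isPreprimitive_of_is_two_pretransitive h2tr'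
        have htr' : IsPretransitive (N.subgroupOf (stabilizer G a)) (ofStabilizer G a) :=
          normal_trans _ hN'
        obtain ⟨K, hKn, hKtr, hKreg⟩ := sharp_kernel N a (by omega) hNtr htr' (by
          intro n hn hna y hy hny
          have hmem : (⟨⟨n, hna⟩, hn⟩ : N.subgroupOf (stabilizer G a)) ∈
              stabilizer (N.subgroupOf (stabilizer G a)) (⟨y, hy⟩ : ofStabilizer G a) := by
            rw [mem_stabilizer_iff]
            exact Subtype.ext hny
          rw [hsr, Subgroup.mem_bot] at hmem
          exact congrArg (fun z : N.subgroupOf (stabilizer G a) => ((z : stabilizer G a) : G)) hmem)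
        have h3p : IsMultiplyPreprimitive G X 3 := by rw [← hk']; exact hkprim
        rcases Cfsg.Agent.S0696.result (by omega) h3p K hKtr hKreg with h | h <;> omega

/-- non-regular normal subgroups of `k`-primitive groups are `k`-transitive. -/
theorem prim_normal (k : ℕ) : ∀ {G X : Type*} [Group G] [MulAction G X] [Finite X] [FaithfulSMul G X],
    1 ≤ k → k ≤ Nat.card X → IsMultiplyPreprimitive G X k →
    ¬ IsMultiplyPretransitive G X (Nat.card X - 1) →
    ∀ (H : Subgroup G) [H.Normal], (∃ a : X, ∃ h ∈ H, h ≠ 1 ∧ h • a = a) →
      IsMultiplyPretransitive H X k := by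
  induction k with
  | zero => intro G X _ _ _ _ hk; omega
  | succ k ih =>
    intro G X _ _ _ _ hk hcard hG hnot H _ hH
    haveI := Fintype.ofFinite X
    haveI := hG
    obtain ⟨a, h₀, hh₀H, hh₀1, hh₀a⟩ := hH
    have hHbot : H ≠ ⊥ := by
      intro h
      rw [h, Subgroup.mem_bot] at hh₀H
      exact hh₀1 hh₀H
    have h1p : IsMultiplyPreprimitive G X 1 := isMultiplyPreprimitive_of_le G X hG hk (enat_le hcard)
    haveI hprim : IsPreprimitive G X := (is_one_preprimitive_iff G X).mp h1p
    have hHtr : IsPretransitive H X := normal_trans H hHbot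
    by_cases hk0 : k = 0
    · subst hk0
      exact is_one_pretransitive_iff.mpr hHtr
    have hk1 : 1 ≤ k := by omega
    have hc := SubMulAction.nat_card_ofStabilizer_add_one_eq (G := G) a
    haveI := faithful_stab (G := G) a
    have hGa : IsMultiplyPreprimitive (stabilizer G a) (ofStabilizer G a) k :=
      isMultiplyPreprimitive_ofStabilizer G X
    have hH' : H.subgroupOf (stabilizer G a) ≠ ⊥ := by
      intro h
      have : (⟨h₀, hh₀a⟩ : stabilizer G a) ∈ H.subgroupOf (stabilizer G a) := hh₀H
      rw [h, Subgroup.mem_bot] at this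
      exact hh₀1 (congrArg Subtype.val this)
    have hnot' : ¬ IsMultiplyPretransitive (stabilizer G a) (ofStabilizer G a)
        (Nat.card (ofStabilizer G a) - 1) := by
      intro h
      apply hnot
      have h1 := (SubMulAction.ofStabilizer.isMultiplyPretransitive (G := G) (a := a)
        (n := Nat.card (ofStabilizer G a) - 1)).mpr h
      have h2 : (Nat.card (ofStabilizer G a) - 1).succ = Nat.card X - 1 := by omega
      rwa [h2] at h1
    by_cases hnr : ∃ b : ofStabilizer G a, ∃ h ∈ H.subgroupOf (stabilizer G a), h ≠ 1 ∧ h • b = b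
    · exact succ_of_stab H a hHtr (ih hk1 (by omega) hGa hnot' (H.subgroupOf (stabilizer G a)) hnr)
    · push Not at hnr
      have h1p' : IsMultiplyPreprimitive (stabilizer G a) (ofStabilizer G a) 1 :=
        isMultiplyPreprimitive_of_le _ _ hGa hk1 (enat_le (by omega))
      haveI hprim' : IsPreprimitive (stabilizer G a) (ofStabilizer G a) := (is_one_preprimitive_iff _ _).mp h1p'
      have htr' : IsPretransitive (H.subgroupOf (stabilizer G a)) (ofStabilizer G a) :=
        normal_trans _ hH'
      by_cases hk1' : k = 1
      · subst hk1'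
        exact succ_of_stab H a hHtr (is_one_pretransitive_iff.mpr htr')
      exfalso
      obtain ⟨K, hKn, hKtr, hKreg⟩ := sharp_kernel H a (by omega) hHtr htr' (by
        intro n hn hna y hy hny
        by_contra hn1
        exact hnr ⟨y, hy⟩ ⟨n, hna⟩ hn (fun h => hn1 (congrArg Subtype.val h)) (Subtype.ext hny))
      have h3p : IsMultiplyPreprimitive G X 3 := isMultiplyPreprimitive_of_le G X hG (by omega) (enat_le hcard)
      have hcF : Nat.card X = Fintype.card X := Nat.card_eq_fintype_card
      have h34 := Cfsg.Agent.S0696.result (by omega) h3p K hKtr hKreg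
      apply hnot
      haveI := h3p
      exact isMultiplyPretransitive_of_le (n := 3) (by omega) (by omega)

end Cfsg.Agent.Lib.Helper29.JordanN
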