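import Mathlib
import Cfsg.Prelude.Def_Perm

/-! Permutation modules in characteristic `p`. -/

set_option autoImplicit false

namespace Cfsg.Agent.Lib.Helper29.PermMod

open MulAction

/-- A `p`-group acting linearly in characteristic `p` fixes a non-zero vector in the additive group generated
by the orbit of any non-zero vector. -/
theorem exists_fixed_vec {P K V : Type*} [Group P] [Finite P] [Field K] [AddCommGroup V] [Module K V]
    {p : ℕ} [Fact p.Prime] [CharP K p] (hP : IsPGroup p P) (ρ : Representation K P V) {v₀ : V} (hv₀ : v₀ ≠ 0) :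
    ∃ v ∈ AddSubgroup.closure (Set.range fun g : P => ρ g v₀), v ≠ 0 ∧ ∀ g : P, ρ g v = v := by
  classical
  set S : AddSubgroup V := AddSubgroup.closure (Set.range fun g : P => ρ g v₀) with hS
  have hpV : ∀ v : V, p • v = 0 := by
    intro v
    rw [← Nat.cast_smul_eq_nsmul K, CharP.cast_eq_zero, zero_smul]
  have hinv : ∀ g : P, ∀ s ∈ S, ρ g s ∈ S := by
    intro g s hs
    induction hs using AddSubgroup.closure_induction with
    | mem x hx =>
      obtain ⟨h, rfl⟩ := hx
      apply AddSubgroup.subset_closure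
      exact ⟨g * h, by simp [map_mul]⟩
    | zero => rw [map_zero]; exact S.zero_mem
    | add x y _ _ hx hy => rw [map_add]; exact S.add_mem hx hy
    | neg x _ hx => rw [map_neg]; exact S.neg_mem hx
  haveI : AddGroup.FG S := AddGroup.closure_finite_fg _
  haveI : Finite S := by
    apply AddCommGroup.finite_of_fg_isAddTorsion
    intro s
    rw [isOfFinAddOrder_iff_nsmul_eq_zero]
    exact ⟨p, (Fact.out : p.Prime).pos, Subtype.ext (hpV s)⟩
  letI : MulAction P S :=
    { smul := fun g s => ⟨ρ g s, hinv g s s.2⟩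
      one_smul := fun s => Subtype.ext (by change ρ 1 (s : V) = s; simp)
      mul_smul := fun g h s => Subtype.ext (by change ρ (g * h) (s : V) = ρ g (ρ h s); simp [map_mul]) }
  have hv₀S : v₀ ∈ S := AddSubgroup.subset_closure ⟨1, by simp⟩
  have hdvd : p ∣ Nat.card S := by
    have h1 : addOrderOf (⟨v₀, hv₀S⟩ : S) = p := by
      apply addOrderOf_eq_prime
      · exact Subtype.ext (hpV v₀)
      · intro h; exact hv₀ (congrArg Subtype.val h)
    rw [← h1]
    exact addOrderOf_dvd_natCard _
  have h0 : (0 : S) ∈ fixedPoints P S := by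
    intro g
    exact Subtype.ext (by change ρ g (0 : V) = 0; simp)
  obtain ⟨b, hb, hb0⟩ := hP.exists_fixed_point_of_prime_dvd_card_of_fixed_point S hdvd h0
  refine ⟨b, b.2, fun h => hb0 (Subtype.ext h.symm), fun g => ?_⟩
  exact congrArg Subtype.val (hb g)

/-- A Sylow `p`-subgroup of a transitive group of degree `p ^ f` is transitive. -/
theorem sylow_orbit {G Ω : Type*} [Group G] [Finite G] [Fintype Ω] [MulAction G Ω] [IsPretransitive G Ω]
    {p f : ℕ} [Fact p.Prime] (hcard : Fintype.card Ω = p ^ f) (P : Sylow p G) (a x : Ω) :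
    ∃ g ∈ (P : Subgroup G), g • a = x := by
  have h1 : (stabilizer G a).index = p ^ f := by
    rw [index_stabilizer_of_transitive, Nat.card_eq_fintype_card, hcard]
  have h2 : (stabilizer G a ⊓ P).relIndex P * (P : Subgroup G).index = (stabilizer G a ⊓ P).index :=
    Subgroup.relIndex_mul_index inf_le_right
  have h3 : (stabilizer G a).index ∣ (stabilizer G a ⊓ P).index := Subgroup.index_dvd_of_le inf_le_left
  rw [Subgroup.inf_relIndex_right] at h2
  rw [← h2, h1] at h3
  have h4 : (p ^ f).Coprime (P : Subgroup G).index :=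
    Nat.Coprime.pow_left _ ((Nat.Prime.coprime_iff_not_dvd Fact.out).mpr P.not_dvd_index)
  have h5 : p ^ f ∣ (stabilizer G a).relIndex P := h4.dvd_of_dvd_mul_right h3
  have h6 : (stabilizer G a).subgroupOf P = stabilizer (P : Subgroup G) a := by
    ext y
    rw [Subgroup.mem_subgroupOf, mem_stabilizer_iff, mem_stabilizer_iff]
    rfl
  rw [Subgroup.relIndex, h6, index_stabilizer] at h5
  have h7 : orbit (P : Subgroup G) a = Set.univ := by
    apply Set.eq_of_subset_of_ncard_le (Set.subset_univ _)
    rw [Set.ncard_univ, Nat.card_eq_fintype_card, hcard]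
    apply Nat.le_of_dvd _ h5
    rw [Set.ncard_pos]
    exact ⟨a, mem_orbit_self a⟩
  have h8 : x ∈ orbit (P : Subgroup G) a := by rw [h7]; trivial
  obtain ⟨g, hg⟩ := h8
  exact ⟨g, g.2, hg⟩

/-- every non-zero subrepresentation contains the constants -/
theorem const_le {G : Type*} [Group G] [Finite G] {K : Type*} [Field K] {p f : ℕ} [Fact p.Prime] [CharP K p]
    {Ω : Type*} [Fintype Ω] [MulAction G Ω] [IsPretransitive G Ω] (hcard : Fintype.card Ω = p ^ f)
    (W : Subrepresentation (Cfsg.permRep K G Ω)) (hW : W.toSubmodule ≠ ⊥) :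
    (Cfsg.permConstants K G Ω).toSubmodule ≤ W.toSubmodule := by
  obtain ⟨w, hw, hw0⟩ := (Submodule.ne_bot_iff _).mp hW
  obtain ⟨P⟩ : Nonempty (Sylow p G) := inferInstance
  obtain ⟨v, hv, hv0, hfix⟩ := exists_fixed_vec P.isPGroup'
    ((Cfsg.permRep K G Ω).comp (P : Subgroup G).subtype) hw0
  have hvW : v ∈ W.toSubmodule := by
    have : AddSubgroup.closure (Set.range fun g : (P : Subgroup G) =>
        ((Cfsg.permRep K G Ω).comp (P : Subgroup G).subtype) g w) ≤ W.toSubmodule.toAddSubgroup := by
      rw [AddSubgroup.closure_le]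
      rintro _ ⟨g, rfl⟩
      exact W.apply_mem_toSubmodule (g : G) hw
    exact this hv
  obtain ⟨a, ha⟩ : ∃ a, v a ≠ 0 := by
    by_contra hcon
    push Not at hcon
    exact hv0 (funext hcon)
  have hconst : ∀ x, v x = v a := by
    intro x
    obtain ⟨g, hg, hgx⟩ := sylow_orbit hcard P x a
    have := congrFun (hfix ⟨g, hg⟩) a
    have e : (((Cfsg.permRep K G Ω).comp (P : Subgroup G).subtype) ⟨g, hg⟩ v) a = v (g⁻¹ • a) := rfl
    rw [e, ← hgx, inv_smul_smul] at this
    rw [this, hgx]
  change Submodule.span K {fun _ => (1 : K)} ≤ W.toSubmodule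
  rw [Submodule.span_singleton_le_iff_mem]
  have : (fun _ => (1 : K)) = (v a)⁻¹ • v := by
    funext x
    simp [hconst x, ha]
  rw [this]
  exact W.toSubmodule.smul_mem _ hvW

open Classical in
/-- the adjacency operator of a relation -/
noncomputable def adj (K : Type*) [Field K] {Ω : Type*} [Fintype Ω] (R : Ω → Ω → Prop) :
    (Ω → K) →ₗ[K] (Ω → K) where
  toFun f x := ∑ y, if R x y then f y else 0
  map_add' f₁ f₂ := by
    funext x
    simp only [Pi.add_apply, ← Finset.sum_add_distrib]
    refine Finset.sum_congr rfl fun y _ => ?_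
    split_ifs <;> simp
  map_smul' c f := by
    funext x
    simp only [Pi.smul_apply, smul_eq_mul, RingHom.id_apply, Finset.mul_sum]
    refine Finset.sum_congr rfl fun y _ => ?_
    split_ifs <;> simp

open Classical in
theorem adj_apply {K : Type*} [Field K] {Ω : Type*} [Fintype Ω] (R : Ω → Ω → Prop) (f : Ω → K) (x : Ω) :
    adj K R f x = ∑ y, if R x y then f y else 0 := rfl

theorem adj_comm {G : Type*} [Group G] {K : Type*} [Field K] {Ω : Type*} [Fintype Ω] [MulAction G Ω]
    {R : Ω → Ω → Prop} (hR : ∀ (g : G) x y, R (g • x) (g • y) ↔ R x y) (g : G) (f : Ω → K) :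
    adj K R (Cfsg.permRep K G Ω g f) = Cfsg.permRep K G Ω g (adj K R f) := by
  classical
  funext x
  change adj K R (fun y => f (g⁻¹ • y)) x = adj K R f (g⁻¹ • x)
  rw [adj_apply, adj_apply]
  refine Fintype.sum_equiv (MulAction.toPerm g⁻¹) _ _ fun y => ?_
  have : R x y ↔ R (g⁻¹ • x) (g⁻¹ • y) := (hR g⁻¹ x y).symm
  simp only [MulAction.toPerm_apply, this]

theorem adj_pair {K : Type*} [Field K] {Ω : Type*} [Fintype Ω] (R : Ω → Ω → Prop) (f h : Ω → K) :
    ∑ x, adj K R f x * h x = ∑ y, f y * adj K (fun a b => R b a) h y := by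
  classical
  simp only [adj_apply, Finset.sum_mul, Finset.mul_sum]
  rw [Finset.sum_comm]
  refine Finset.sum_congr rfl fun y _ => Finset.sum_congr rfl fun x _ => ?_
  split_ifs <;> simp

theorem adj_single {K : Type*} [Field K] {Ω : Type*} [Fintype Ω] [DecidableEq Ω] (R : Ω → Ω → Prop)
    (x y : Ω) [Decidable (R x y)] : adj K R (Pi.single y 1) x = if R x y then 1 else 0 := by
  classical
  rw [adj_apply]
  rw [Finset.sum_eq_single y]
  · simp
  · intro z _ hz
    simp [hz]
  · intro h; exact absurd (Finset.mem_univ _) h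

end Cfsg.Agent.Lib.Helper29.PermMod
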