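import Mathlib

/-! Permutation module of prime degree in characteristic `p`: shift-invariant subspaces are the
spaces of polynomial functions of bounded degree. -/

namespace Cfsg.Agent.Lib.Helper29.PrimeDeg

open Polynomial

/-- coordinate data on a set of `p` points: an injective coordinate `x` and a permutation `c`
which shifts the coordinate by the nonzero constant `s`. -/
structure Shift (α : Type*) [Fintype α] (K : Type*) [Field K] (p : ℕ) where
  x : α → K
  inj : Function.Injective x
  c : Equiv.Perm α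
  s : K
  s_ne : s ≠ 0
  shift : ∀ a, x (c a) = x a + s
  card : Fintype.card α = p

namespace Shift

variable {α : Type*} [Fintype α] {K : Type*} [Field K] {p : ℕ} (S : Shift α K p)

/-- evaluation of polynomials at the coordinate. -/
noncomputable def ev : K[X] →ₗ[K] (α → K) where
  toFun P := fun a => P.eval (S.x a)
  map_add' P Q := by ext a; simp
  map_smul' t P := by ext a; simp

@[simp] theorem ev_apply (P : K[X]) (a : α) : S.ev P a = P.eval (S.x a) := rfl

/-- polynomial functions of degree `< r`. -/
noncomputable def V (r : ℕ) : Submodule K (α → K) := (degreeLT K r).map S.ev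

theorem mem_V {r : ℕ} {f : α → K} :
    f ∈ S.V r ↔ ∃ P : K[X], P.degree < r ∧ ∀ a, f a = P.eval (S.x a) := by
  constructor
  · rintro ⟨P, hP, rfl⟩
    exact ⟨P, mem_degreeLT.mp hP, fun a => rfl⟩
  · rintro ⟨P, hP, h⟩
    exact ⟨P, mem_degreeLT.mpr hP, funext fun a => (h a).symm⟩

theorem ev_mem_V {r : ℕ} {P : K[X]} (hP : P.degree < r) : S.ev P ∈ S.V r :=
  ⟨P, mem_degreeLT.mpr hP, rfl⟩

theorem V_mono {r r' : ℕ} (h : r ≤ r') : S.V r ≤ S.V r' :=
  Submodule.map_mono (degreeLT_mono h)

theorem ev_inj {P : K[X]} (hP : P.degree < p) (h : S.ev P = 0) : P = 0 := by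
  apply Polynomial.eq_zero_of_degree_lt_of_eval_index_eq_zero (s := Finset.univ) (v := S.x)
    S.inj.injOn
  · rw [Finset.card_univ, S.card]; exact hP
  · intro a _
    exact congrFun h a

theorem ev_inj' {P Q : K[X]} (hP : P.degree < p) (hQ : Q.degree < p) (h : S.ev P = S.ev Q) :
    P = Q := by
  have : P - Q = 0 := by
    apply S.ev_inj
    · exact lt_of_le_of_lt (degree_sub_le P Q) (max_lt hP hQ)
    · rw [map_sub, h, sub_self]
  exact sub_eq_zero.mp this

theorem finrank_V {r : ℕ} (hr : r ≤ p) : Module.finrank K (S.V r) = r := by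
  have h1 : S.V r = LinearMap.range (S.ev.domRestrict (degreeLT K r)) := by
    rw [LinearMap.range_domRestrict]; rfl
  rw [h1, LinearMap.finrank_range_of_inj, (degreeLTEquiv K r).finrank_eq, Module.finrank_fin_fun]
  intro P Q hPQ
  apply Subtype.ext
  apply S.ev_inj' _ _ hPQ
  · exact lt_of_lt_of_le (mem_degreeLT.mp P.2) (by exact_mod_cast hr)
  · exact lt_of_lt_of_le (mem_degreeLT.mp Q.2) (by exact_mod_cast hr)

theorem V_top : S.V p = ⊤ := by
  apply Submodule.eq_top_of_finrank_eq
  rw [S.finrank_V le_rfl, Module.finrank_fintype_fun_eq_card, S.card]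

theorem V_zero : S.V 0 = ⊥ := by
  rw [eq_bot_iff]
  rintro _ ⟨P, hP, rfl⟩
  have : P = 0 := by
    have := mem_degreeLT.mp hP
    simpa using this
  rw [this, map_zero]
  exact Submodule.zero_mem _

/-- the shift operator. -/
noncomputable def T : Module.End K (α → K) := LinearMap.funLeft K K S.c

@[simp] theorem T_apply (f : α → K) (a : α) : S.T f a = f (S.c a) := rfl

/-- the difference operator. -/
noncomputable def D : Module.End K (α → K) := S.T - 1

theorem D_apply (f : α → K) (a : α) : S.D f a = f (S.c a) - f a := rfl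

theorem D_ev (P : K[X]) : S.D (S.ev P) = S.ev (taylor S.s P - P) := by
  ext a
  rw [D_apply, ev_apply, ev_apply, ev_apply, eval_sub, taylor_eval, S.shift]

theorem degree_taylor_sub {r : ℕ} (t : K) {P : K[X]} (hP : P.degree < (r + 1 : ℕ)) :
    (taylor t P - P).degree < r := by
  by_cases h0 : P = 0
  · subst h0
    simp
  · have h1 : (taylor t P - P).degree < (taylor t P).degree :=
      degree_sub_lt_left (degree_taylor P t) (by simpa using h0) (leadingCoeff_taylor t P)
    rw [degree_taylor, degree_eq_natDegree h0] at h1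
    rw [degree_eq_natDegree h0] at hP
    have h2 : P.natDegree ≤ r := Nat.lt_succ_iff.mp (by exact_mod_cast hP)
    exact lt_of_lt_of_le h1 (by exact_mod_cast h2)

theorem D_V {r : ℕ} {f : α → K} (hf : f ∈ S.V (r + 1)) : S.D f ∈ S.V r := by
  obtain ⟨P, hP, rfl⟩ := hf
  rw [D_ev]
  exact S.ev_mem_V (degree_taylor_sub _ (mem_degreeLT.mp hP))

theorem V_le_ker (r : ℕ) : S.V r ≤ LinearMap.ker (S.D ^ r) := by
  induction r with
  | zero => rw [V_zero]; exact bot_le
  | succ r ih =>
    intro f hf
    rw [LinearMap.mem_ker, pow_succ, Module.End.mul_apply]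
    exact ih (S.D_V hf)

theorem x_pow (k : ℕ) (a : α) : S.x ((S.c ^ k) a) = S.x a + k * S.s := by
  induction k with
  | zero => simp
  | succ k ih =>
    rw [pow_succ', Equiv.Perm.mul_apply, S.shift, ih]
    push_cast
    ring

theorem trans [CharP K p] [Fact p.Prime] (a b : α) : ∃ k : ℕ, (S.c ^ k) a = b := by
  have hinj : Function.Injective (fun k : Fin p => (S.c ^ (k : ℕ)) a) := by
    intro k k' h
    have h1 := congrArg S.x h
    simp only [x_pow] at h1
    have h2 : ((k : ℕ) : K) = ((k' : ℕ) : K) := by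
      have := add_left_cancel h1
      exact mul_right_cancel₀ S.s_ne this
    have h3 := (CharP.natCast_eq_natCast K p).mp h2
    exact Fin.ext (Nat.ModEq.eq_of_lt_of_lt h3 k.2 k'.2)
  have hbij := (Fintype.bijective_iff_injective_and_card _).mpr
    ⟨hinj, by rw [Fintype.card_fin, S.card]⟩
  obtain ⟨k, hk⟩ := hbij.2 b
  exact ⟨k, hk⟩

theorem ker_D_le [CharP K p] [Fact p.Prime] : LinearMap.ker S.D ≤ S.V 1 := by
  intro f hf
  have h1 : ∀ a, f (S.c a) = f a := by
    intro a
    have := congrFun (LinearMap.mem_ker.mp hf) a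
    rw [D_apply] at this
    exact sub_eq_zero.mp this
  have h2 : ∀ (k : ℕ) a, f ((S.c ^ k) a) = f a := by
    intro k
    induction k with
    | zero => intro a; simp
    | succ k ih => intro a; rw [pow_succ', Equiv.Perm.mul_apply, h1, ih]
  have hne : Nonempty α := by
    rw [← Fintype.card_pos_iff, S.card]
    exact (Fact.out : p.Prime).pos
  obtain ⟨a0⟩ := hne
  rw [mem_V]
  refine ⟨C (f a0), lt_of_le_of_lt degree_C_le (by norm_num), ?_⟩
  intro a
  obtain ⟨k, hk⟩ := S.trans a0 a
  rw [eval_C, ← hk, h2]

theorem finrank_ker_pow [CharP K p] [Fact p.Prime] (r : ℕ) :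
    Module.finrank K (LinearMap.ker (S.D ^ r)) ≤ r := by
  induction r with
  | zero =>
    rw [pow_zero]
    have : LinearMap.ker (1 : Module.End K (α → K)) = ⊥ := LinearMap.ker_id
    rw [this, finrank_bot]
  | succ r ih =>
    set N := LinearMap.ker (S.D ^ (r + 1)) with hN
    let g : N →ₗ[K] (α → K) := (S.D ^ r).domRestrict N
    have h1 := LinearMap.finrank_range_add_finrank_ker g
    have h2 : LinearMap.range g ≤ LinearMap.ker S.D := by
      rintro _ ⟨v, rfl⟩
      have hv : (S.D ^ (r + 1)) (v : α → K) = 0 := v.2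
      rw [pow_succ', Module.End.mul_apply] at hv
      exact hv
    have h3 : Module.finrank K (LinearMap.range g) ≤ 1 := by
      calc Module.finrank K (LinearMap.range g) ≤ Module.finrank K (S.V 1) :=
            Submodule.finrank_mono (h2.trans S.ker_D_le)
        _ = 1 := S.finrank_V (Fact.out : p.Prime).pos
    have h4 : Module.finrank K (LinearMap.ker g) ≤ r := by
      rw [← Submodule.finrank_map_subtype_eq N (LinearMap.ker g)]
      refine le_trans (Submodule.finrank_mono ?_) ih
      rintro _ ⟨v, hv, rfl⟩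
      exact hv
    omega

theorem ker_pow_eq [CharP K p] [Fact p.Prime] {r : ℕ} (hr : r ≤ p) :
    LinearMap.ker (S.D ^ r) = S.V r := by
  symm
  apply Submodule.eq_of_le_of_finrank_le (S.V_le_ker r)
  rw [S.finrank_V hr]
  exact S.finrank_ker_pow r

/-- classification of the shift-invariant subspaces. -/
theorem classify [CharP K p] [Fact p.Prime] (W : Submodule K (α → K))
    (hW : ∀ f ∈ W, (fun a => f (S.c a)) ∈ W) :
    Module.finrank K W ≤ p ∧ W = S.V (Module.finrank K W) := by
  have hle : Module.finrank K W ≤ p := by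
    have := Submodule.finrank_le W
    rwa [Module.finrank_fintype_fun_eq_card, S.card] at this
  refine ⟨hle, ?_⟩
  have hD : ∀ f ∈ W, S.D f ∈ W := by
    intro f hf
    exact W.sub_mem (hW f hf) hf
  have hp0 : S.D ^ p = 0 := by
    have := S.ker_pow_eq le_rfl
    rw [V_top] at this
    exact LinearMap.ker_eq_top.mp this
  have h1 : (S.D.restrict hD) ^ p = 0 := by
    rw [Module.End.pow_restrict]
    ext w
    rw [LinearMap.restrict_apply]
    simp [hp0]
  have h2 := Module.End.ker_pow_eq_ker_pow_finrank_of_le (f := S.D.restrict hD) hle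
  rw [h1] at h2
  have h3 : LinearMap.ker ((S.D.restrict hD) ^ Module.finrank K W) = ⊤ := by
    rw [← h2]; exact LinearMap.ker_zero
  have h4 : W ≤ LinearMap.ker (S.D ^ Module.finrank K W) := by
    intro w hw
    have h5 : (⟨w, hw⟩ : W) ∈ LinearMap.ker ((S.D.restrict hD) ^ Module.finrank K W) := by
      rw [h3]; trivial
    rw [LinearMap.mem_ker, Module.End.pow_restrict] at h5
    exact congrArg Subtype.val h5
  rw [S.ker_pow_eq hle] at h4
  apply Submodule.eq_of_le_of_finrank_eq h4
  rw [S.finrank_V hle]

end Shift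

end Cfsg.Agent.Lib.Helper29.PrimeDeg
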