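import Mathlib
import Cfsg.Agent.Lib.Helper29.PrimeDeg

/-! Prime degree, part 2: duality, invariant subspaces force affine groups. -/

namespace Cfsg.Agent.Lib.Helper29.PrimeDeg

open Polynomial

namespace Shift

variable {α : Type*} [Fintype α] {K : Type*} [Field K] {p : ℕ} (S : Shift α K p)

/-- the sum functional. -/
noncomputable def sumL : (α → K) →ₗ[K] K where
  toFun f := ∑ a, f a
  map_add' f g := by simp [Finset.sum_add_distrib]
  map_smul' t f := by simp [Finset.mul_sum]

omit [Fintype α] in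
theorem deg_lt_of_natDegree_lt {P : K[X]} {r : ℕ} (h : P.natDegree < r) : P.degree < r :=
  lt_of_le_of_lt degree_le_natDegree (by exact_mod_cast h)

omit [Fintype α] in
theorem natDegree_lt_of_deg_lt {P : K[X]} {r : ℕ} (h : P.degree < r) (h0 : P ≠ 0) :
    P.natDegree < r := (natDegree_lt_iff_degree_lt h0).mpr h

theorem ev_mul (P Q : K[X]) : S.ev (P * Q) = S.ev P * S.ev Q := by
  ext a; simp

theorem ev_pow (P : K[X]) (n : ℕ) : S.ev (P ^ n) = S.ev P ^ n := by
  ext a; simp

theorem sz_eq [CharP K p] [Fact p.Prime] : LinearMap.ker (sumL (α := α) (K := K)) = S.V (p - 1) := by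
  classical
  have hp : 0 < p := (Fact.out : p.Prime).pos
  obtain ⟨h1, h2⟩ := S.classify (LinearMap.ker (sumL (α := α) (K := K))) (by
    intro f hf
    rw [LinearMap.mem_ker] at hf ⊢
    change ∑ a, f (S.c a) = 0
    rw [Equiv.sum_comp S.c f]
    exact hf)
  have h3 := LinearMap.finrank_range_add_finrank_ker (sumL (α := α) (K := K))
  rw [Module.finrank_fintype_fun_eq_card, S.card] at h3
  have h4 : Module.finrank K (LinearMap.range (sumL (α := α) (K := K))) ≤ 1 := by
    have := Submodule.finrank_le (LinearMap.range (sumL (α := α) (K := K)))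
    rwa [Module.finrank_self] at this
  have h5 : Module.finrank K (LinearMap.ker (sumL (α := α) (K := K))) ≠ p := by
    intro h
    rw [h, V_top] at h2
    have hne : Nonempty α := by
      rw [← Fintype.card_pos_iff, S.card]; exact hp
    obtain ⟨a0⟩ := hne
    have : (Pi.single a0 1 : α → K) ∈ LinearMap.ker (sumL (α := α) (K := K)) := by
      rw [h2]; trivial
    rw [LinearMap.mem_ker] at this
    change ∑ a, (Pi.single a0 1 : α → K) a = 0 at this
    rw [Finset.sum_pi_single'] at this
    simp at this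
  have h6 : Module.finrank K (LinearMap.ker (sumL (α := α) (K := K))) = p - 1 := by omega
  rw [h6] at h2
  exact h2

theorem sum_eq_zero_of_mem [CharP K p] [Fact p.Prime] {f : α → K} (hf : f ∈ S.V (p - 1)) :
    ∑ a, f a = 0 := by
  rw [← S.sz_eq] at hf
  exact hf

theorem mem_of_sum_eq_zero [CharP K p] [Fact p.Prime] {f : α → K} (hf : ∑ a, f a = 0) :
    f ∈ S.V (p - 1) := by
  rw [← S.sz_eq]
  exact hf

theorem pair_zero [CharP K p] [Fact p.Prime] {r : ℕ} (hr : r ≤ p) {f w : α → K}
    (hf : f ∈ S.V (p - r)) (hw : w ∈ S.V r) : ∑ a, f a * w a = 0 := by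
  obtain ⟨P, hP, rfl⟩ := hf
  obtain ⟨Q, hQ, rfl⟩ := hw
  have hP' := mem_degreeLT.mp hP
  have hQ' := mem_degreeLT.mp hQ
  by_cases hP0 : P = 0
  · subst hP0; simp
  by_cases hQ0 : Q = 0
  · subst hQ0; simp
  have h1 := natDegree_lt_of_deg_lt hP' hP0
  have h2 := natDegree_lt_of_deg_lt hQ' hQ0
  have h3 : S.ev (P * Q) ∈ S.V (p - 1) := by
    apply S.ev_mem_V
    apply deg_lt_of_natDegree_lt
    rw [natDegree_mul hP0 hQ0]
    omega
  have := S.sum_eq_zero_of_mem h3
  rw [ev_mul] at this
  exact this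

theorem mem_of_pair_zero [CharP K p] [Fact p.Prime] {r : ℕ} {f : α → K}
    (hf : ∀ w ∈ S.V r, ∑ a, f a * w a = 0) : f ∈ S.V (p - r) := by
  have hp : 0 < p := (Fact.out : p.Prime).pos
  have hft : f ∈ S.V p := by rw [V_top]; trivial
  obtain ⟨P, hP, rfl⟩ := hft
  have hP' := mem_degreeLT.mp hP
  by_contra hcon
  have hP0 : P ≠ 0 := by
    rintro rfl
    apply hcon
    rw [map_zero]; exact Submodule.zero_mem _
  have h1 := natDegree_lt_of_deg_lt hP' hP0
  have h2 : p - r ≤ P.natDegree := by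
    by_contra h
    push Not at h
    exact hcon (S.ev_mem_V (deg_lt_of_natDegree_lt h))
  have h3 : S.ev (X ^ (p - 1 - P.natDegree)) ∈ S.V r := by
    apply S.ev_mem_V
    apply deg_lt_of_natDegree_lt
    rw [natDegree_X_pow]
    omega
  have h4 := hf _ h3
  have h5 : S.ev (P * X ^ (p - 1 - P.natDegree)) ∈ S.V (p - 1) := by
    apply S.mem_of_sum_eq_zero
    rw [ev_mul]
    exact h4
  obtain ⟨Q, hQ, hQe⟩ := h5
  have hQ' := mem_degreeLT.mp hQ
  have h6 : (P * X ^ (p - 1 - P.natDegree)).natDegree = p - 1 := by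
    rw [natDegree_mul_X_pow _ hP0]
    omega
  have h7 : Q = P * X ^ (p - 1 - P.natDegree) := by
    apply S.ev_inj' _ _ hQe
    · exact lt_of_lt_of_le hQ' (by exact_mod_cast Nat.sub_le p 1)
    · apply deg_lt_of_natDegree_lt
      omega
  have hQ0 : Q ≠ 0 := by
    rw [h7]
    exact mul_ne_zero hP0 (pow_ne_zero _ X_ne_zero)
  have h8 := natDegree_lt_of_deg_lt hQ' hQ0
  rw [h7, h6] at h8
  omega

/-- duality of invariance. -/
theorem dual_inv [CharP K p] [Fact p.Prime] {r : ℕ} (hr : r ≤ p) (g : Equiv.Perm α)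
    (hg : ∀ f ∈ S.V r, (fun a => f (g⁻¹ a)) ∈ S.V r) :
    ∀ f ∈ S.V (p - r), (fun a => f (g a)) ∈ S.V (p - r) := by
  intro f hf
  apply S.mem_of_pair_zero
  intro w hw
  have h1 := S.pair_zero hr hf (hg w hw)
  rw [← Equiv.sum_comp g] at h1
  simpa using h1

/-- small degree: an invariant `V r` forces the permutation to be affine. -/
theorem affine_small {r : ℕ} (h2 : 2 ≤ r) (hr : 2 * (r - 1) ≤ p - 1) (hp : 0 < p)
    (g : Equiv.Perm α)
    (hg : ∀ f ∈ S.V r, (fun a => f (g a)) ∈ S.V r) : (fun a => S.x (g a)) ∈ S.V 2 := by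
  have hx : S.ev X ∈ S.V r := by
    apply S.ev_mem_V
    apply deg_lt_of_natDegree_lt
    rw [natDegree_X]; omega
  obtain ⟨P, hP, hPe⟩ := hg _ hx
  have hP' := mem_degreeLT.mp hP
  have hPe' : S.ev P = fun a => S.x (g a) := by
    rw [hPe]; ext a; simp
  rw [← hPe']
  by_contra hcon
  have hP0 : P ≠ 0 := by
    rintro rfl
    apply hcon
    rw [map_zero]; exact Submodule.zero_mem _
  have he : 2 ≤ P.natDegree := by
    by_contra h
    push Not at h
    exact hcon (S.ev_mem_V (deg_lt_of_natDegree_lt h))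
  have hed := natDegree_lt_of_deg_lt hP' hP0
  set e := P.natDegree with he_def
  set d := r - 1 with hd_def
  have hde : e ≤ d := by omega
  set i := d / e + 1 with hi_def
  have hi1 : d < e * i := by
    rw [hi_def]
    exact Nat.lt_mul_div_succ d (by omega)
  have hi2 : e * i ≤ d + e := by
    rw [hi_def, mul_add, mul_one]
    exact Nat.add_le_add_right (Nat.mul_div_le d e) e
  have hi3 : i ≤ d := by
    have : d / e ≤ d / 2 := Nat.div_le_div_left he (by norm_num)
    omega
  have hxi : S.ev (X ^ i) ∈ S.V r := by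
    apply S.ev_mem_V
    apply deg_lt_of_natDegree_lt
    rw [natDegree_X_pow]; omega
  obtain ⟨Q, hQ, hQe⟩ := hg _ hxi
  have hQ' := mem_degreeLT.mp hQ
  have h3 : S.ev Q = S.ev (P ^ i) := by
    rw [hQe, S.ev_pow P, hPe']
    ext a
    simp
  have h4 : (P ^ i).natDegree = e * i := by
    rw [natDegree_pow, mul_comm]
  have h5 : Q = P ^ i := by
    apply S.ev_inj' _ _ h3
    · exact lt_of_lt_of_le hQ' (by exact_mod_cast (by omega : r ≤ p))
    · apply deg_lt_of_natDegree_lt
      omega
  have hQ0 : Q ≠ 0 := by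
    rw [h5]; exact pow_ne_zero _ hP0
  have h6 := natDegree_lt_of_deg_lt hQ' hQ0
  rw [h5, h4] at h6
  omega

/-- an intermediate invariant subspace forces the whole group to be affine. -/
theorem affine_of_inv [CharP K p] [Fact p.Prime] {r : ℕ} (h2 : 2 ≤ r) (hr : r + 2 ≤ p)
    (Γ : Subgroup (Equiv.Perm α))
    (hΓ : ∀ g ∈ Γ, ∀ f ∈ S.V r, (fun a => f (g a)) ∈ S.V r) :
    ∀ g ∈ Γ, (fun a => S.x (g a)) ∈ S.V 2 := by
  intro g hg
  by_cases hc : 2 * (r - 1) ≤ p - 1
  · exact S.affine_small h2 hc (by omega) g (hΓ g hg)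
  · apply S.affine_small (r := p - r) (by omega) (by omega) (by omega) g
    exact S.dual_inv (by omega) g (hΓ g⁻¹ (Γ.inv_mem hg))

theorem affine_form {g : Equiv.Perm α} (hg : (fun a => S.x (g a)) ∈ S.V 2) :
    ∃ u v : K, ∀ a, S.x (g a) = u * S.x a + v := by
  obtain ⟨P, hP, hPe⟩ := hg
  have hP' := mem_degreeLT.mp hP
  have h1 : P.degree ≤ 1 := by
    by_cases h0 : P = 0
    · subst h0; simp
    · have := natDegree_lt_of_deg_lt hP' h0
      exact le_trans degree_le_natDegree (by exact_mod_cast (by omega : P.natDegree ≤ 1))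
  refine ⟨P.coeff 1, P.coeff 0, fun a => ?_⟩
  have h2 := congrFun hPe a
  rw [ev_apply, eq_X_add_C_of_degree_le_one h1] at h2
  simpa using h2.symm

/-- a group of affine permutations is solvable. -/
theorem solvable_of_affine [Fact p.Prime] (Γ : Subgroup (Equiv.Perm α))
    (hΓ : ∀ g ∈ Γ, (fun a => S.x (g a)) ∈ S.V 2) : Group.IsSolvable Γ := by
  classical
  have hne : Nonempty α := by
    rw [← Fintype.card_pos_iff, S.card]; exact (Fact.out : p.Prime).pos
  obtain ⟨t⟩ := hne
  let sl : Γ → K := fun g => (S.x ((g : Equiv.Perm α) (S.c t)) - S.x ((g : Equiv.Perm α) t)) / S.s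
  have hsl : ∀ (g : Γ) (a b : α), S.x ((g : Equiv.Perm α) a) - S.x ((g : Equiv.Perm α) b)
      = sl g * (S.x a - S.x b) := by
    intro g a b
    obtain ⟨u, v, huv⟩ := S.affine_form (hΓ g g.2)
    have : sl g = u := by
      change (S.x ((g : Equiv.Perm α) (S.c t)) - S.x ((g : Equiv.Perm α) t)) / S.s = u
      rw [huv, huv, S.shift]
      field_simp [S.s_ne]
      ring
    rw [this, huv, huv]
    ring
  let φ : Γ →* K :=
    { toFun := sl
      map_one' := by
        change (S.x (S.c t) - S.x t) / S.s = 1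
        rw [S.shift]
        field_simp [S.s_ne]
        ring
      map_mul' := by
        intro g h
        change (S.x ((g : Equiv.Perm α) ((h : Equiv.Perm α) (S.c t)))
          - S.x ((g : Equiv.Perm α) ((h : Equiv.Perm α) t))) / S.s = sl g * sl h
        rw [hsl g, hsl h, S.shift]
        field_simp [S.s_ne]
        ring }
  let ψ : Γ →* Kˣ := φ.toHomUnits
  have hker : ∀ g : Γ, g ∈ ψ.ker → sl g = 1 := by
    intro g hg
    have : ψ g = 1 := hg
    have h2 := congrArg Units.val this
    exact h2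
  haveI : Group.IsSolvable ψ.ker := by
    apply Group.isSolvable_of_comm
    intro g h
    apply Subtype.ext
    apply Subtype.ext
    apply Equiv.ext
    intro a
    apply S.inj
    have hg := hker g.1 g.2
    have hh := hker h.1 h.2
    change S.x ((g.1 : Equiv.Perm α) ((h.1 : Equiv.Perm α) a))
      = S.x ((h.1 : Equiv.Perm α) ((g.1 : Equiv.Perm α) a))
    have e1 := hsl g.1 ((h.1 : Equiv.Perm α) a) t
    have e2 := hsl h.1 a t
    have e3 := hsl h.1 ((g.1 : Equiv.Perm α) a) t
    have e4 := hsl g.1 a t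
    rw [hg, one_mul] at e1 e4
    rw [hh, one_mul] at e2 e3
    linear_combination e1 + e2 - e3 - e4
  exact Group.isSolvable_of_ker_le_range ψ.ker.subtype ψ (by rw [Subgroup.range_subtype])

/-- degrees two and three: everything is affine. -/
theorem affine_of_le_three [CharP K p] [Fact p.Prime] (hp : p ≤ 3) (g : Equiv.Perm α) :
    (fun a => S.x (g a)) ∈ S.V 2 := by
  have hp2 : 2 ≤ p := (Fact.out : p.Prime).two_le
  rcases (by omega : p = 2 ∨ p = 3) with h | h
  · have h0 : S.V 2 = S.V p := congrArg S.V h.symm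
    rw [h0, S.V_top]; trivial
  · have h1 : S.V 2 = S.V (p - 1) := congrArg S.V (by omega)
    rw [h1]
    apply S.mem_of_sum_eq_zero
    rw [Equiv.sum_comp g S.x]
    apply S.sum_eq_zero_of_mem
    have : S.x = S.ev X := by ext a; simp
    rw [this]
    apply S.ev_mem_V
    apply deg_lt_of_natDegree_lt
    rw [natDegree_X]; omega

theorem V_one : S.V 1 = Submodule.span K {fun _ => (1 : K)} := by
  apply le_antisymm
  · rintro _ ⟨P, hP, rfl⟩
    have hP' := mem_degreeLT.mp hP
    have h1 : P.degree ≤ 0 := by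
      by_cases h0 : P = 0
      · subst h0; simp
      · have := natDegree_lt_of_deg_lt hP' h0
        exact le_trans degree_le_natDegree (by exact_mod_cast (by omega : P.natDegree ≤ 0))
    rw [Submodule.mem_span_singleton]
    refine ⟨P.coeff 0, ?_⟩
    ext a
    rw [ev_apply]
    conv_rhs => rw [eq_C_of_degree_le_zero h1]
    simp
  · rw [Submodule.span_le]
    rintro _ rfl
    rw [SetLike.mem_coe, mem_V]
    exact ⟨C 1, lt_of_le_of_lt degree_C_le (by norm_num), fun a => by simp⟩

theorem sq_not_mem [CharP K p] [Fact p.Prime] (hp : 4 ≤ p) :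
    S.ev (X ^ 2) ∈ S.V (p - 1) ∧ S.D (S.ev (X ^ 2)) ∉ S.V 1 := by
  constructor
  · apply S.ev_mem_V
    apply deg_lt_of_natDegree_lt
    rw [natDegree_X_pow]; omega
  · intro h
    rw [← S.ker_pow_eq (by omega : 1 ≤ p), pow_one, LinearMap.mem_ker] at h
    have h2 : S.ev (X ^ 2) ∈ LinearMap.ker (S.D ^ 2) := by
      rw [LinearMap.mem_ker, pow_two, Module.End.mul_apply, h]
    rw [S.ker_pow_eq (by omega : 2 ≤ p)] at h2
    obtain ⟨Q, hQ, hQe⟩ := h2
    have hQ' := mem_degreeLT.mp hQ
    have h3 : Q = X ^ 2 := by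
      apply S.ev_inj' _ _ hQe
      · exact lt_of_lt_of_le hQ' (by exact_mod_cast (by omega : 2 ≤ p))
      · apply deg_lt_of_natDegree_lt
        rw [natDegree_X_pow]; omega
    have h4 := natDegree_lt_of_deg_lt hQ' (by rw [h3]; exact pow_ne_zero _ X_ne_zero)
    rw [h3, natDegree_X_pow] at h4
    omega

end Shift

/-- a transitive group of prime degree contains a `p`-cycle, giving coordinates. -/
theorem exists_shift {α : Type*} [Fintype α] {p : ℕ} [Fact p.Prime]
    (hα : Fintype.card α = p) (G : Subgroup (Equiv.Perm α)) [MulAction.IsPretransitive G α]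
    (K : Type*) [Field K] [CharP K p] : ∃ S : Shift α K p, S.c ∈ G := by
  classical
  have hp : p.Prime := Fact.out
  have hne : Nonempty α := by
    rw [← Fintype.card_pos_iff, hα]; exact hp.pos
  obtain ⟨t⟩ := hne
  have hdvd : p ∣ Nat.card G := by
    have h1 := MulAction.index_stabilizer_of_transitive G t
    rw [Nat.card_eq_fintype_card, hα] at h1
    rw [← h1]
    exact Subgroup.index_dvd_card _
  obtain ⟨c, hc⟩ := exists_prime_orderOf_dvd_card' p hdvd
  have hc' : orderOf (c : Equiv.Perm α) = p := by rw [Subgroup.orderOf_coe, hc]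
  have hc1 : (c : Equiv.Perm α) ≠ 1 := by
    intro h
    rw [h, orderOf_one] at hc'
    exact hp.one_lt.ne hc'
  obtain ⟨a0, ha0⟩ : ∃ a0, (c : Equiv.Perm α) a0 ≠ a0 := by
    by_contra hcon
    push Not at hcon
    exact hc1 (Equiv.ext hcon)
  set σ : Equiv.Perm α := (c : Equiv.Perm α) with hσ
  have hper : MulAction.period σ a0 = p := by
    have h1 : MulAction.period σ a0 ∣ p := hc' ▸ MulAction.period_dvd_orderOf σ a0
    rcases (Nat.dvd_prime hp).mp h1 with h | h
    · exfalso
      exact ha0 (MulAction.period_eq_one_iff.mp h)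
    · exact h
  have key : ∀ i j : ℕ, (σ ^ i) a0 = (σ ^ j) a0 → i ≡ j [MOD p] := by
    have aux : ∀ i j : ℕ, i ≤ j → (σ ^ i) a0 = (σ ^ j) a0 → i ≡ j [MOD p] := by
      intro i j hij h
      obtain ⟨k, rfl⟩ := Nat.exists_eq_add_of_le hij
      rw [pow_add, Equiv.Perm.mul_apply] at h
      have h1 : (σ ^ k) a0 = a0 := ((σ ^ i).injective h).symm
      have h2 : σ ^ k • a0 = a0 := h1
      rw [MulAction.pow_smul_eq_iff_period_dvd, hper] at h2
      rw [Nat.modEq_iff_dvd' hij]
      simpa using h2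
    intro i j h
    rcases le_total i j with hij | hij
    · exact aux i j hij h
    · exact (aux j i hij h.symm).symm
  have key' : ∀ i j : ℕ, i ≡ j [MOD p] → σ ^ i = σ ^ j := by
    intro i j h
    rw [pow_eq_pow_iff_modEq, hc']
    exact h
  have hsurj : ∀ a, ∃ k : ℕ, (σ ^ k) a0 = a := by
    have hinj : Function.Injective (fun k : Fin p => (σ ^ (k : ℕ)) a0) := by
      intro k k' h
      exact Fin.ext (Nat.ModEq.eq_of_lt_of_lt (key _ _ h) k.2 k'.2)
    have hbij := (Fintype.bijective_iff_injective_and_card _).mpr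
      ⟨hinj, by rw [Fintype.card_fin, hα]⟩
    intro a
    obtain ⟨k, hk⟩ := hbij.2 a
    exact ⟨k, hk⟩
  choose k hk using hsurj
  refine ⟨{ x := fun a => ((k a : ℕ) : K)
            inj := ?_
            c := σ
            s := 1
            s_ne := one_ne_zero
            shift := ?_
            card := hα }, c.2⟩
  · intro a b hab
    have h1 := (CharP.natCast_eq_natCast K p).mp hab
    rw [← hk a, ← hk b, key' _ _ h1]
  · intro a
    have h1 : (σ ^ (k (σ a))) a0 = (σ ^ (k a + 1)) a0 := by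
      rw [hk, pow_succ', Equiv.Perm.mul_apply, hk]
    have h2 := (CharP.natCast_eq_natCast K p).mpr (key _ _ h1)
    rw [h2]
    push_cast
    ring

end Cfsg.Agent.Lib.Helper29.PrimeDeg
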