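import Mathlib
import Cfsg.Agent.Lib.Helper29.Mobius
import Cfsg.Agent.Lib.Helper29.NearField
import Cfsg.Agent.S0682
import Cfsg.Agent.S0683

/-! Sharply 3-transitive permutation groups. -/

set_option autoImplicit false

namespace Cfsg.Agent.Lib.Helper29.Sharp3

open Cfsg.Agent.Lib.Helper29.Mobius

universe u

variable {α : Type u}

/-- sharply 3-transitive permutation groups, elementwise -/
structure IsSharp3 (G : Subgroup (Equiv.Perm α)) : Prop where
  trans : ∀ {a b c a' b' c' : α}, a ≠ b → a ≠ c → b ≠ c → a' ≠ b' → a' ≠ c' → b' ≠ c' →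
    ∃ g ∈ G, g a = a' ∧ g b = b' ∧ g c = c'
  sharp : ∀ {g : Equiv.Perm α}, g ∈ G → ∀ {a b c : α}, a ≠ b → a ≠ c → b ≠ c →
    g a = a → g b = b → g c = c → g = 1

theorem inj3 {a b c : α} (h1 : a ≠ b) (h2 : a ≠ c) (h3 : b ≠ c) : Function.Injective ![a, b, c] := by
  intro i j hij
  fin_cases i <;> fin_cases j <;> simp_all

theorem trans_of {G : Subgroup (Equiv.Perm α)} (h3 : MulAction.IsMultiplyPretransitive G α 3)
    {a b c a' b' c' : α} (h1 : a ≠ b) (h2 : a ≠ c) (h3' : b ≠ c) (h4 : a' ≠ b') (h5 : a' ≠ c') (h6 : b' ≠ c') :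
    ∃ g ∈ G, g a = a' ∧ g b = b' ∧ g c = c' := by
  obtain ⟨g, hg⟩ := h3.exists_smul_eq (⟨![a, b, c], inj3 h1 h2 h3'⟩ : Fin 3 ↪ α) ⟨![a', b', c'], inj3 h4 h5 h6⟩
  exact ⟨g, g.2, DFunLike.congr_fun hg 0, DFunLike.congr_fun hg 1, DFunLike.congr_fun hg 2⟩

theorem isSharp3_of {G : Subgroup (Equiv.Perm α)} (h3 : MulAction.IsMultiplyPretransitive G α 3)
    (hsharp : ∀ x : Fin 3 ↪ α, MulAction.stabilizer G x = ⊥) : IsSharp3 G where
  trans := trans_of h3
  sharp := by
    intro g hg a b c h1 h2 h3' ha hb hc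
    have hmem : (⟨g, hg⟩ : G) ∈ MulAction.stabilizer G (⟨![a, b, c], inj3 h1 h2 h3'⟩ : Fin 3 ↪ α) := by
      rw [MulAction.mem_stabilizer_iff]
      ext i
      fin_cases i
      · exact ha
      · exact hb
      · exact hc
    rw [hsharp] at hmem
    exact congrArg Subtype.val (Subgroup.mem_bot.mp hmem)

variable {G : Subgroup (Equiv.Perm α)}

theorem IsSharp3.eq_of_agree (h : IsSharp3 G) {g k : Equiv.Perm α} (hg : g ∈ G) (hk : k ∈ G) {a b c : α}
    (h1 : a ≠ b) (h2 : a ≠ c) (h3 : b ≠ c) (ha : g a = k a) (hb : g b = k b) (hc : g c = k c) : g = k := by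
  have : k⁻¹ * g = 1 := h.sharp (G.mul_mem (G.inv_mem hk) hg) h1 h2 h3
    (by rw [Equiv.Perm.mul_apply, ha, Equiv.Perm.inv_eq_iff_eq])
    (by rw [Equiv.Perm.mul_apply, hb, Equiv.Perm.inv_eq_iff_eq])
    (by rw [Equiv.Perm.mul_apply, hc, Equiv.Perm.inv_eq_iff_eq])
  exact (inv_mul_eq_one.mp this).symm

/-- an involution of a sharply 3-transitive group of odd degree has at most one fixed point -/
theorem IsSharp3.fix_unique [Fintype α] [DecidableEq α] (h : IsSharp3 G) (hodd : Odd (Fintype.card α))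
    {g : Equiv.Perm α} (hg : g ∈ G) (hg1 : g ≠ 1) (hgg : g * g = 1) {c c' : α} (hc : g c = c) (hc' : g c' = c') :
    c = c' := by
  by_contra hne
  haveI : Fact (Nat.Prime 2) := ⟨Nat.prime_two⟩
  let f : Function.End α := fun x => g x
  have hf : f ^ 2 ^ 1 = 1 := by
    rw [pow_one, sq]
    funext x
    change g (g x) = x
    rw [← Equiv.Perm.mul_apply, hgg, Equiv.Perm.one_apply]
  have hmod := Equiv.Perm.card_fixedPoints_modEq (α := α) (f := f) (p := 2) (n := 1) hf
  have hcard : Fintype.card (Function.fixedPoints f) = (Finset.univ.filter fun x => g x = x).card := by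
    rw [Fintype.card_subtype]
    rfl
  rw [hcard] at hmod
  have h2 : 2 ≤ (Finset.univ.filter fun x => g x = x).card := by
    have : ({c, c'} : Finset α) ⊆ Finset.univ.filter fun x => g x = x := by
      intro z hz
      rcases Finset.mem_insert.mp hz with rfl | hz
      · simpa using hc
      · rw [Finset.mem_singleton] at hz; subst hz; simpa using hc'
    have h3 := Finset.card_le_card this
    rwa [Finset.card_pair hne] at h3
  have h3 : 2 < (Finset.univ.filter fun x => g x = x).card := by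
    obtain ⟨k, hk⟩ := hodd
    have : (Finset.univ.filter fun x => g x = x).card % 2 = 1 := by
      have := hmod.symm
      unfold Nat.ModEq at this
      omega
    omega
  obtain ⟨x, hx, y, hy, z, hz, hxy, hxz, hyz⟩ := Finset.two_lt_card.mp h3
  simp only [Finset.mem_filter, Finset.mem_univ, true_and] at hx hy hz
  exact hg1 (h.sharp hg hxy hxz hyz hx hy hz)

/-- in odd degree every element interchanging two points is an involution -/
theorem IsSharp3.invol [Fintype α] [DecidableEq α] (h : IsSharp3 G) (hodd : Odd (Fintype.card α))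
    {w o : α} (hwo : w ≠ o) {g : Equiv.Perm α} (hg : g ∈ G) (hgw : g w = o) (hgo : g o = w) : g * g = 1 := by
  obtain ⟨c₀, hc₀w, hc₀o⟩ : ∃ c : α, c ≠ w ∧ c ≠ o := by
    by_contra hcon
    push Not at hcon
    have : (Finset.univ : Finset α) = {w, o} := by
      ext z
      simp only [Finset.mem_univ, Finset.mem_insert, Finset.mem_singleton, true_iff]
      by_cases hz : z = w
      · exact Or.inl hz
      · exact Or.inr (hcon z hz)
    have h2 : Fintype.card α = 2 := by
      rw [← Finset.card_univ, this, Finset.card_pair hwo]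
    rw [h2] at hodd
    exact absurd hodd (by decide)
  let P := {c : α // c ≠ w ∧ c ≠ o}
  let T := {g : Equiv.Perm α // g ∈ G ∧ g w = o ∧ g o = w}
  have hex : ∀ c : P, ∃ g : T, g.1 c.1 = c.1 := by
    intro c
    obtain ⟨g, hg, h1, h2, h3⟩ := h.trans hwo (Ne.symm c.2.1) (Ne.symm c.2.2) hwo.symm (Ne.symm c.2.2) (Ne.symm c.2.1)
    exact ⟨⟨g, hg, h1, h2⟩, h3⟩
  choose Φ hΦ using hex
  have hsq : ∀ c : P, (Φ c).1 * (Φ c).1 = 1 := by
    intro c
    apply h.sharp (G.mul_mem (Φ c).2.1 (Φ c).2.1) hwo (Ne.symm c.2.1) (Ne.symm c.2.2)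
    · rw [Equiv.Perm.mul_apply, (Φ c).2.2.1, (Φ c).2.2.2]
    · rw [Equiv.Perm.mul_apply, (Φ c).2.2.2, (Φ c).2.2.1]
    · rw [Equiv.Perm.mul_apply, hΦ, hΦ]
  have hne1 : ∀ t : T, t.1 ≠ 1 := by
    intro t e
    have := t.2.2.1
    rw [e, Equiv.Perm.one_apply] at this
    exact hwo this
  have hinj : Function.Injective Φ := by
    intro c c' hcc
    apply Subtype.ext
    apply h.fix_unique hodd (Φ c).2.1 (hne1 _) (hsq c) (hΦ c)
    rw [hcc]; exact hΦ c'
  let Ψ : T → P := fun t => ⟨t.1 c₀, by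
    constructor
    · intro e; exact hc₀o (t.1.injective (e.trans t.2.2.2.symm))
    · intro e; exact hc₀w (t.1.injective (e.trans t.2.2.1.symm))⟩
  have hΨ : Function.Injective Ψ := by
    intro t t' htt
    apply Subtype.ext
    apply h.eq_of_agree t.2.1 t'.2.1 hwo (Ne.symm hc₀w) (Ne.symm hc₀o)
    · rw [t.2.2.1, t'.2.2.1]
    · rw [t.2.2.2, t'.2.2.2]
    · exact congrArg Subtype.val htt
  haveI : Finite T := Finite.of_injective Ψ hΨ
  have hbij := hinj.bijective_of_nat_card_le (Nat.card_le_card_of_injective Ψ hΨ)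
  obtain ⟨c, hc⟩ := hbij.2 ⟨g, hg, hgw, hgo⟩
  have := hsq c
  rw [hc] at this
  exact this

/-- a finite near-field with commutative multiplication is a field -/
theorem exists_field (β : Type u) [Cfsg.NearField β] [Finite β] (hmul : ∀ x y : β, x * y = y * x) :
    ∃ (K : Type u) (_ : Field K) (e : β ≃ K), (∀ x y, e (x + y) = e x + e y) ∧
      ∀ x y, e (x * y) = e x * e y := by
  obtain ⟨p, j, hp, hj, hcard, hadd, hexp⟩ := Cfsg.Agent.S0682.result (F := β)
  let R : CommRing β :=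
    { (inferInstance : AddGroup β), (inferInstance : Monoid β) with
      add_comm := hadd
      left_distrib := fun a b c => by rw [hmul a (b + c), NF.add_mul', hmul b a, hmul c a]
      right_distrib := NF.add_mul'
      zero_mul := NF.zero_mul'
      mul_zero := NF.mul_zero'
      mul_comm := hmul }
  have hF : @IsField β R.toSemiring :=
    { exists_pair_ne := ⟨0, 1, Cfsg.NearField.zero_ne_one⟩
      mul_comm := hmul
      mul_inv_cancel := fun {a} ha => (Cfsg.NearField.exists_inv a ha).imp fun b hb => hb.1 }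
  exact ⟨β, @IsField.toField β R.toRing hF, Equiv.refl β, fun _ _ => rfl, fun _ _ => rfl⟩

/-- the group induced by the stabiliser of `w` on the remaining points -/
def stabGroup (G : Subgroup (Equiv.Perm α)) (w : α) : Subgroup (Equiv.Perm {x : α // x ≠ w}) where
  carrier := {σ | ∃ g ∈ G, g w = w ∧ ∀ x : {x : α // x ≠ w}, g x = σ x}
  one_mem' := ⟨1, G.one_mem, rfl, fun x => rfl⟩
  mul_mem' := by
    rintro σ τ ⟨g, hg, h1, h2⟩ ⟨k, hk, h3, h4⟩
    exact ⟨g * k, G.mul_mem hg hk, by rw [Equiv.Perm.mul_apply, h3, h1],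
      fun x => by rw [Equiv.Perm.mul_apply, h4, h2, Equiv.Perm.mul_apply]⟩
  inv_mem' := by
    rintro σ ⟨g, hg, h1, h2⟩
    refine ⟨g⁻¹, G.inv_mem hg, by rw [Equiv.Perm.inv_eq_iff_eq, h1], fun x => ?_⟩
    rw [Equiv.Perm.inv_eq_iff_eq, h2]
    simp

theorem exists_restrict {g : Equiv.Perm α} (hg : g ∈ G) {w : α} (hw : g w = w) :
    ∃ σ ∈ stabGroup G w, ∀ x : {x : α // x ≠ w}, g x = σ x := by
  have hp : ∀ x, g x ≠ w ↔ x ≠ w := by
    intro x
    refine not_congr ⟨fun e => g.injective (e.trans hw.symm), fun e => by rw [e, hw]⟩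
  exact ⟨g.subtypePerm hp, ⟨g, hg, hw, fun x => rfl⟩, fun x => rfl⟩

/-- coordinates on the projective line -/
structure Coord (G : Subgroup (Equiv.Perm α)) (w : α) (K : Type*) [Field K] (c : {x : α // x ≠ w} ≃ K) :
    Prop where
  aff : ∀ a b : K, a ≠ 0 → ∃ g ∈ G, g w = w ∧ ∀ x : K, g (c.symm x) = c.symm (a * x + b)
  inv : ∃ t ∈ G, t w = c.symm 0 ∧ t (c.symm 0) = w ∧ ∀ x : K, x ≠ 0 → t (c.symm x) = c.symm x⁻¹

theorem coord_of_nearField [Fintype α] [DecidableEq α] (h : IsSharp3 G) (hodd : Odd (Fintype.card α)) (w : α)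
    [nf : Cfsg.NearField {x : α // x ≠ w}]
    (hnf : ∀ σ : Equiv.Perm {x : α // x ≠ w}, σ ∈ stabGroup G w ↔
      ∃ a b : {x : α // x ≠ w}, a ≠ 0 ∧ ∀ x, σ x = x * a + b) :
    ∃ (K : Type u) (_ : Field K) (c : {x : α // x ≠ w} ≃ K), Coord G w K c := by
  set o : {x : α // x ≠ w} := 0 with ho
  set e : {x : α // x ≠ w} := 1 with he
  have hoe : o ≠ e := Cfsg.NearField.zero_ne_one
  have hoe' : (o : α) ≠ e := fun E => hoe (Subtype.ext E)
  have hwo : w ≠ o := Ne.symm o.2
  have hwe : w ≠ e := Ne.symm e.2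
  obtain ⟨t, ht, htw, hto, hte⟩ := h.trans hwo hwe hoe' hwo.symm hoe' hwe
  have hA : ∀ a b : {x : α // x ≠ w}, a ≠ 0 → ∃ g ∈ G, g w = w ∧
      ∀ x : {x : α // x ≠ w}, g x = ((x * a + b : {x : α // x ≠ w}) : α) := by
    intro a b ha
    obtain ⟨a', h1, h2⟩ := Cfsg.NearField.exists_inv a ha
    obtain ⟨g, hg, hgw, hgx⟩ := (hnf (NF.aff a a' b h1 h2)).mpr ⟨a, b, ha, fun x => rfl⟩
    exact ⟨g, hg, hgw, fun x => by rw [hgx]; rfl⟩
  have htt : t * t = 1 := h.invol hodd hwo ht htw hto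
  have key : ∀ g ∈ G, g w = w → g o = o → t * g * t = g⁻¹ := by
    intro g hg hgw hgo
    have := h.invol hodd hwo (G.mul_mem ht hg) (by rw [Equiv.Perm.mul_apply, hgw, htw])
      (by rw [Equiv.Perm.mul_apply, hgo, hto])
    rw [← mul_assoc] at this
    exact mul_eq_one_iff_eq_inv.mp this
  have hcomm : ∀ g ∈ G, ∀ k ∈ G, g w = w → g o = o → k w = w → k o = o → g * k = k * g := by
    intro g hg k hk h1 h2 h3 h4
    have e1 := key (g * k) (G.mul_mem hg hk) (by rw [Equiv.Perm.mul_apply, h3, h1])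
      (by rw [Equiv.Perm.mul_apply, h4, h2])
    have e2 : t * (g * k) * t = (t * g * t) * (t * k * t) := by
      calc t * (g * k) * t = t * g * 1 * k * t := by group
        _ = t * g * (t * t) * k * t := by rw [htt]
        _ = (t * g * t) * (t * k * t) := by group
    rw [e2, key g hg h1 h2, key k hk h3 h4, mul_inv_rev] at e1
    have e3 := congrArg (fun z => z⁻¹) e1
    simpa using e3.symm
  have hmul : ∀ x y : {x : α // x ≠ w}, x * y = y * x := by
    intro x y
    by_cases hx : x = 0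
    · rw [hx, NF.zero_mul', NF.mul_zero']
    by_cases hy : y = 0
    · rw [hy, NF.zero_mul', NF.mul_zero']
    obtain ⟨g, hg, hgw, hgx⟩ := hA x 0 hx
    obtain ⟨k, hk, hkw, hkx⟩ := hA y 0 hy
    have h1 := hcomm g hg k hk hgw (by rw [hgx, ho, NF.zero_mul', add_zero]) hkw
      (by rw [hkx, ho, NF.zero_mul', add_zero])
    have h2 := congrArg (fun z : Equiv.Perm α => z e) h1
    simp only [Equiv.Perm.mul_apply] at h2
    rw [hkx, hgx, hgx, hkx] at h2
    have h3 := Subtype.ext h2
    simp only [he, one_mul, add_zero] at h3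
    exact h3.symm
  have htinv : ∀ x y : {x : α // x ≠ w}, x ≠ 0 → y * x = 1 → t x = y := by
    intro x y hx hyx
    obtain ⟨g, hg, hgw, hgx⟩ := hA x 0 hx
    have h1 := key g hg hgw (by rw [hgx, ho, NF.zero_mul', add_zero])
    have h2 : g e = x := by rw [hgx, he, one_mul, add_zero]
    have h3 : g y = e := by rw [hgx, hyx, add_zero]
    have h4 := congrArg (fun z : Equiv.Perm α => z e) h1
    simp only [Equiv.Perm.mul_apply] at h4
    rw [hte, h2] at h4
    rw [h4, Equiv.Perm.inv_eq_iff_eq, h3]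
  obtain ⟨K, fK, c, hcadd, hcmul⟩ := exists_field {x : α // x ≠ w} hmul
  have hc0 : c 0 = 0 := by
    have := hcadd 0 0
    rw [add_zero] at this
    exact (left_eq_add.mp this)
  have hc1 : c 1 = 1 := by
    have h1 := hcmul 1 1
    rw [mul_one] at h1
    have h2 : c 1 ≠ 0 := by
      rw [← hc0]
      exact fun E => hoe (c.injective E).symm
    exact (mul_eq_left₀ h2).mp h1.symm
  refine ⟨K, fK, c, ?_, ?_⟩
  · intro a b ha
    have ha0 : c.symm a ≠ 0 := by
      intro E
      apply ha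
      rw [← c.apply_symm_apply a, E, hc0]
    obtain ⟨g, hg, hgw, hgx⟩ := hA (c.symm a) (c.symm b) ha0
    refine ⟨g, hg, hgw, fun x => ?_⟩
    rw [hgx]
    congr 1
    apply c.injective
    rw [hcadd, hcmul]
    simp [mul_comm]
  · refine ⟨t, ht, ?_, ?_, ?_⟩
    · rw [htw, ← hc0, c.symm_apply_apply]
    · rw [← hc0, c.symm_apply_apply]; exact hto
    · intro x hx
      apply htinv
      · intro E
        apply hx
        rw [← c.apply_symm_apply x, E, hc0]
      · apply c.injective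
        rw [hcmul, hc1]
        simp [hx]

theorem exists_coord [Fintype α] [DecidableEq α] (h : IsSharp3 G) (hodd : Odd (Fintype.card α))
    (h3 : 3 ≤ Fintype.card α) (w : α) :
    ∃ (K : Type u) (_ : Field K) (c : {x : α // x ≠ w} ≃ K), Coord G w K c := by
  haveI : MulAction.IsMultiplyPretransitive (stabGroup G w) {x : α // x ≠ w} 2 := by
    rw [MulAction.is_two_pretransitive_iff]
    intro a b c d hab hcd
    obtain ⟨g, hg, h1, h2, h3⟩ := h.trans (Ne.symm a.2) (Ne.symm b.2) (fun E => hab (Subtype.ext E))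
      (Ne.symm c.2) (Ne.symm d.2) (fun E => hcd (Subtype.ext E))
    obtain ⟨σ, hσ, hσx⟩ := exists_restrict hg h1
    refine ⟨⟨σ, hσ⟩, Subtype.ext ?_, Subtype.ext ?_⟩
    · change ((σ a : {x : α // x ≠ w}) : α) = c
      rw [← hσx, h2]
    · change ((σ b : {x : α // x ≠ w}) : α) = d
      rw [← hσx, h3]
  have hsharp : ∀ x : Fin 2 ↪ {x : α // x ≠ w}, MulAction.stabilizer (stabGroup G w) x = ⊥ := by
    intro x
    rw [eq_bot_iff]
    rintro ⟨σ, g, hg, hgw, hgx⟩ hσ
    rw [MulAction.mem_stabilizer_iff] at hσ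
    have h0 : σ (x 0) = x 0 := DFunLike.congr_fun hσ 0
    have h1 : σ (x 1) = x 1 := DFunLike.congr_fun hσ 1
    have hne : ((x 0 : {x : α // x ≠ w}) : α) ≠ x 1 := by
      intro E
      have := x.injective (Subtype.ext E)
      exact absurd this (by decide)
    have hg1 : g = 1 := h.sharp hg (Ne.symm (x 0).2) (Ne.symm (x 1).2) hne hgw
      (by rw [hgx, h0]) (by rw [hgx, h1])
    rw [Subgroup.mem_bot]
    apply Subtype.ext
    ext y
    change ((σ y : {x : α // x ≠ w}) : α) = y
    rw [← hgx, hg1]; rfl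
  have hcard : 2 ≤ Fintype.card {x : α // x ≠ w} := by
    rw [Fintype.card_subtype_compl, Fintype.card_subtype_eq]
    omega
  obtain ⟨nf, hnf⟩ := Cfsg.Agent.S0683.result (stabGroup G w) hsharp hcard
  exact coord_of_nearField h hodd w hnf

theorem Coord.transfer {w : α} {K K' : Type*} [Field K] [Field K'] {c : {x : α // x ≠ w} ≃ K}
    (hc : Coord G w K c) (ψ : K ≃+* K') : Coord G w K' (c.trans ψ.toEquiv) where
  aff := by
    intro a b ha
    obtain ⟨g, hg, hgw, hgx⟩ := hc.aff (ψ.symm a) (ψ.symm b) (by simpa using ha)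
    refine ⟨g, hg, hgw, fun x => ?_⟩
    have := hgx (ψ.symm x)
    simpa using this
  inv := by
    obtain ⟨t, ht, h1, h2, h3⟩ := hc.inv
    refine ⟨t, ht, by simpa using h1, by simpa using h2, fun x hx => ?_⟩
    have := h3 (ψ.symm x) (by simpa using hx)
    simpa using this

theorem Coord.iso [DecidableEq α] (h : IsSharp3 G) {w : α} {K : Type*} [Field K]
    {c : {x : α // x ≠ w} ≃ K} (hc : Coord G w K c) :
    Nonempty (G ≃* Matrix.ProjGenLinGroup (Fin 2) K) := by
  classical
  let C : α ≃ OnePoint K := (Equiv.optionSubtypeNe w).symm.trans (Equiv.optionCongr c)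
  have hCi : C.symm OnePoint.infty = w := Equiv.optionSubtypeNe_none w
  have hCx : ∀ x : K, C.symm (x : OnePoint K) = c.symm x := fun x => Equiv.optionSubtypeNe_some w _
  have hCi' : C w = OnePoint.infty := by rw [← hCi, C.apply_symm_apply]
  have hCx' : ∀ x : K, C (c.symm x) = (x : OnePoint K) := fun x => by rw [← hCx, C.apply_symm_apply]
  let f : Equiv.Perm α →* Equiv.Perm (OnePoint K) := C.permCongrHom.toMonoidHom
  have hf : ∀ (g : Equiv.Perm α) (y : OnePoint K), f g y = C (g (C.symm y)) := fun g y => rfl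
  have hgood : Good (G.map f) := by
    refine ⟨?_, ?_, ?_⟩
    · intro a b ha
      obtain ⟨g, hg, hgw, hgx⟩ := hc.aff a b ha
      refine ⟨f g, ⟨g, hg, rfl⟩, ?_, fun x => ?_⟩
      · rw [hf, hCi, hgw, hCi']
      · rw [hf, hCx, hgx, hCx']
    · obtain ⟨t, ht, h1, h2, h3⟩ := hc.inv
      refine ⟨f t, ⟨t, ht, rfl⟩, ?_, ?_, fun x hx => ?_⟩
      · rw [hf, hCi, h1, hCx']
      · rw [hf, hCx, h2, hCi']
      · rw [hf, hCx, h3 x hx, hCx']
    · rintro _ ⟨g, hg, rfl⟩ h1 h2 h3
      rw [hf, hCi, ← hCi'] at h1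
      rw [hf, hCx, ← hCx'] at h2 h3
      have e1 := C.injective h1
      have e2 := C.injective h2
      have e3 := C.injective h3
      have hne : ((c.symm 0 : {x : α // x ≠ w}) : α) ≠ c.symm 1 := by
        intro E
        have := c.symm.injective (Subtype.ext E)
        exact zero_ne_one this
      rw [h.sharp hg (Ne.symm (c.symm 0).2) (Ne.symm (c.symm 1).2) hne e1 e2 e3, map_one]
  obtain ⟨e⟩ := hgood.iso
  exact ⟨(G.equivMapOfInjective f C.permCongrHom.injective).trans e⟩

theorem main_even [Fintype α] [DecidableEq α] (h : IsSharp3 G) (hodd : Odd (Fintype.card α))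
    (h3 : 3 ≤ Fintype.card α) :
    ∃ f : ℕ, 1 ≤ f ∧ Fintype.card α = 2 ^ f + 1 ∧
      Nonempty (G ≃* Matrix.ProjGenLinGroup (Fin 2) (GaloisField 2 f)) := by
  classical
  obtain ⟨w⟩ : Nonempty α := by
    rw [← Fintype.card_pos_iff]; omega
  obtain ⟨K, fK, c, hc⟩ := exists_coord h hodd h3 w
  haveI : Fintype K := Fintype.ofEquiv _ c
  have hcardK : Fintype.card K + 1 = Fintype.card α := by
    rw [← Fintype.card_congr c, Fintype.card_subtype_compl, Fintype.card_subtype_eq]
    omega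
  obtain ⟨p, hp⟩ := CharP.exists K
  obtain ⟨n, hpp, hn⟩ := FiniteField.card K p
  have hp2 : p = 2 := by
    have heven : Even (Fintype.card K) := by
      obtain ⟨k, hk⟩ := hodd
      exact ⟨k, by omega⟩
    rw [hn] at heven
    have := (Nat.Prime.even_iff hpp).mp ((Nat.even_pow.mp heven).1)
    exact this
  subst hp2
  haveI : Fact (Nat.Prime 2) := ⟨Nat.prime_two⟩
  haveI : Fintype (GaloisField 2 n) := Fintype.ofFinite _
  have hG : Fintype.card K = Fintype.card (GaloisField 2 n) := by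
    rw [hn, ← Nat.card_eq_fintype_card, GaloisField.card 2 n n.ne_zero]
  refine ⟨n, n.pos, by omega, ?_⟩
  exact (hc.transfer (FiniteField.ringEquivOfCardEq hG)).iso h

end Cfsg.Agent.Lib.Helper29.Sharp3
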