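import Mathlib
import Cfsg.Agent.Lib.Helper29.Sharp2
import Cfsg.Agent.Lib.Helper29.Sharp4

set_option autoImplicit false

namespace Cfsg.Agent.Lib.Helper29.Sharp4

open MulAction SubMulAction

variable {G Ω : Type*} [Group G] [MulAction G Ω]

theorem IsSharp4.finite (h : IsSharp4 G Ω) [Finite Ω] {p1 p2 p3 p4 : Ω} (hD : D4 p1 p2 p3 p4) : Finite G := by
  haveI : FaithfulSMul G Ω := ⟨fun {g k} hgk => h.eq_of_agree hD (hgk _) (hgk _) (hgk _) (hgk _)⟩
  exact Finite.of_injective (MulAction.toPermHom G Ω) MulAction.toPerm_injective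

/-- the kernel of the (sharply 2-transitive) two point stabilizer -/
structure IsKer2 (K : Subgroup G) (u v : Ω) : Prop where
  fix : ∀ k ∈ K, k • u = u ∧ k • v = v
  semireg : ∀ k ∈ K, ∀ ω : Ω, ω ≠ u → ω ≠ v → k • ω = ω → k = 1
  mem : ∀ g : G, g • u = u → g • v = v → (∀ ω : Ω, ω ≠ u → ω ≠ v → g • ω ≠ ω) → g ∈ K
  trans : ∀ a b : Ω, a ≠ u → a ≠ v → b ≠ u → b ≠ v → ∃ k ∈ K, k • a = b
  comm : ∀ k ∈ K, ∀ k' ∈ K, k * k' = k' * k

theorem IsSharp4.exists_ker2 (h : IsSharp4 G Ω) [Finite Ω] {p1 p2 u v : Ω} (hD : D4 p1 p2 u v) :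
    ∃ K : Subgroup G, IsKer2 K u v ∧ ∃ p j : ℕ, p.Prime ∧ Nat.card Ω = p ^ j + 2 ∧ ∀ k ∈ K, k ^ p = 1 := by
  haveI := h.finite hD
  obtain ⟨h12, h1u, h1v, h2u, h2v, huv⟩ := hD
  have hmemY : ∀ ω : Ω, ω ∈ ofFixingSubgroup G ({u, v} : Set Ω) ↔ ω ≠ u ∧ ω ≠ v := by
    intro ω
    rw [mem_ofFixingSubgroup_iff]
    simp
  have hmemL : ∀ g : G, g ∈ fixingSubgroup G ({u, v} : Set Ω) ↔ g • u = u ∧ g • v = v := by
    intro g
    rw [mem_fixingSubgroup_iff]
    simp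
  have hcardY : Nat.card (ofFixingSubgroup G ({u, v} : Set Ω)) + 2 = Nat.card Ω := by
    have h1 : Nat.card (ofFixingSubgroup G ({u, v} : Set Ω)) = (({u, v} : Set Ω)ᶜ).ncard :=
      Nat.card_coe_set_eq (({u, v} : Set Ω)ᶜ)
    have h2 := Set.ncard_add_ncard_compl ({u, v} : Set Ω)
    rw [Set.ncard_pair huv] at h2
    omega
  have h2' : ∀ a b c d : ofFixingSubgroup G ({u, v} : Set Ω), a ≠ b → c ≠ d →
      ∃ g : fixingSubgroup G ({u, v} : Set Ω), g • a = c ∧ g • b = d := by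
    intro a b c d hab hcd
    have ha := (hmemY a).1 a.2
    have hb := (hmemY b).1 b.2
    have hc := (hmemY c).1 c.2
    have hd := (hmemY d).1 d.2
    obtain ⟨g, g1, g2, g3, g4⟩ := h.trans (a := u) (b := v) (c := (a : Ω)) (d := (b : Ω)) (a' := u) (b' := v)
      (c' := (c : Ω)) (d' := (d : Ω))
      ⟨huv, ha.1.symm, hb.1.symm, ha.2.symm, hb.2.symm, fun e => hab (Subtype.ext e)⟩
      ⟨huv, hc.1.symm, hd.1.symm, hc.2.symm, hd.2.symm, fun e => hcd (Subtype.ext e)⟩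
    exact ⟨⟨g, (hmemL g).2 ⟨g1, g2⟩⟩, Subtype.ext g3, Subtype.ext g4⟩
  have hsharp' : ∀ (g : fixingSubgroup G ({u, v} : Set Ω)) (a b : ofFixingSubgroup G ({u, v} : Set Ω)),
      a ≠ b → g • a = a → g • b = b → g = 1 := by
    intro g a b hab hga hgb
    have ha := (hmemY a).1 a.2
    have hb := (hmemY b).1 b.2
    have hg := (hmemL g).1 g.2
    apply Subtype.ext
    exact h.sharp (a := u) (b := v) (c := (a : Ω)) (d := (b : Ω))
      ⟨huv, ha.1.symm, hb.1.symm, ha.2.symm, hb.2.symm, fun e => hab (Subtype.ext e)⟩ hg.1 hg.2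
      (congrArg Subtype.val hga) (congrArg Subtype.val hgb)
  have hc2 : 2 ≤ Nat.card (ofFixingSubgroup G ({u, v} : Set Ω)) := by
    have : Nontrivial (ofFixingSubgroup G ({u, v} : Set Ω)) :=
      ⟨⟨p1, (hmemY p1).2 ⟨h1u, h1v⟩⟩, ⟨p2, (hmemY p2).2 ⟨h2u, h2v⟩⟩, fun e => h12 (congrArg Subtype.val e)⟩
    exact Finite.one_lt_card
  obtain ⟨K₀, hK₀⟩ := Sharp2.exists_isKer h2' hsharp' hc2
  obtain ⟨hcomm, p, j, hp, _, hcj, hexp⟩ := hK₀.structure h2' hc2
  refine ⟨K₀.map (fixingSubgroup G ({u, v} : Set Ω)).subtype, ⟨?_, ?_, ?_, ?_, ?_⟩, p, j, hp, by omega, ?_⟩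
  · rintro _ ⟨k, _, rfl⟩
    exact (hmemL k).1 k.2
  · rintro _ ⟨k, hk, rfl⟩ ω hωu hωv hkω
    have : k = 1 := hK₀.eq_one hk (a := ⟨ω, (hmemY ω).2 ⟨hωu, hωv⟩⟩) (Subtype.ext hkω)
    rw [this]; rfl
  · intro g hgu hgv hg
    refine ⟨⟨g, (hmemL g).2 ⟨hgu, hgv⟩⟩, ?_, rfl⟩
    rw [SetLike.mem_coe, hK₀.mem_iff]
    right
    intro ω hω
    have hω' := (hmemY ω).1 ω.2
    exact hg ω hω'.1 hω'.2 (congrArg Subtype.val hω)
  · intro a b hau hav hbu hbv
    obtain ⟨k, hk, hkab⟩ := hK₀.trans ⟨a, (hmemY a).2 ⟨hau, hav⟩⟩ ⟨b, (hmemY b).2 ⟨hbu, hbv⟩⟩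
    exact ⟨k, ⟨k, hk, rfl⟩, congrArg Subtype.val hkab⟩
  · rintro _ ⟨k, hk, rfl⟩ _ ⟨k', hk', rfl⟩
    have := hcomm.is_comm.comm (⟨k, hk⟩ : K₀) ⟨k', hk'⟩
    exact congrArg (fun z : K₀ => ((z : fixingSubgroup G ({u, v} : Set Ω)) : G)) this
  · rintro _ ⟨k, hk, rfl⟩
    have := hexp k hk
    exact congrArg Subtype.val this

section
variable {x y : G} {p1 p2 p3 p4 : Ω}

theorem Pair.y_inv (P : Pair x y p1 p2 p3 p4) (h : IsSharp4 G Ω) : y⁻¹ = y :=
  inv_eq_of_mul_eq_one_left (P.yy h)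

theorem Pair.y_ne34 (P : Pair x y p1 p2 p3 p4) (h : IsSharp4 G Ω) {ω : Ω} (h3 : ω ≠ p3) (h4 : ω ≠ p4) :
    y • ω ≠ p3 ∧ y • ω ≠ p4 := by
  constructor
  · intro e
    apply h4
    rw [← P.yy' h ω, e, P.y3]
  · intro e
    apply h3
    rw [← P.yy' h ω, e, P.y4]

theorem Pair.conj_mem (P : Pair x y p1 p2 p3 p4) (h : IsSharp4 G Ω) {K : Subgroup G} (hK : IsKer2 K p3 p4)
    {k : G} (hk : k ∈ K) : y * k * y ∈ K := by
  by_cases hk1 : k = 1
  · rw [hk1, mul_one, P.yy h]; exact K.one_mem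
  have hf := hK.fix k hk
  apply hK.mem
  · rw [mul_smul, mul_smul, P.y3, hf.2, P.y4]
  · rw [mul_smul, mul_smul, P.y4, hf.1, P.y3]
  · intro ω h3 h4 e
    apply hk1
    have h34 := P.y_ne34 h h3 h4
    apply hK.semireg k hk (y • ω) h34.1 h34.2
    rw [mul_smul, mul_smul] at e
    have := congrArg (fun z => y • z) e
    simp only [P.yy' h] at this
    exact this

theorem IsKer2.inj {K : Subgroup G} {u v : Ω} (hK : IsKer2 K u v) {k k' : G} (hk : k ∈ K) (hk' : k' ∈ K) {a : Ω}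
    (hau : a ≠ u) (hav : a ≠ v) (e : k • a = k' • a) : k = k' := by
  have := hK.semireg _ (K.mul_mem (K.inv_mem hk') hk) a hau hav (by rw [mul_smul, e, inv_smul_smul])
  exact (inv_mul_eq_one.mp this).symm

theorem IsKer2.ne {K : Subgroup G} {u v : Ω} (hK : IsKer2 K u v) {k : G} (hk : k ∈ K) {a : Ω}
    (hau : a ≠ u) (hav : a ≠ v) : k • a ≠ u ∧ k • a ≠ v := by
  have hf := hK.fix k hk
  constructor
  · intro e
    apply hau
    rw [← hf.1] at e
    exact MulAction.injective k e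
  · intro e
    apply hav
    rw [← hf.2] at e
    exact MulAction.injective k e

/-- the characteristic of the kernel is 2 or 3. -/
theorem Pair.char_le (P : Pair x y p1 p2 p3 p4) (h : IsSharp4 G Ω) {K : Subgroup G} (hK : IsKer2 K p3 p4)
    {p : ℕ} (hp : p.Prime) (hexp : ∀ k ∈ K, k ^ p = 1) : p = 2 ∨ p = 3 := by
  obtain ⟨h12, h13, h14, h23, h24, h34⟩ := P.hD
  obtain ⟨k₁, hk₁, hk₁p⟩ := hK.trans p1 p2 h13 h14 h23 h24
  have hk₁1 : k₁ ≠ 1 := by
    intro e; rw [e, one_smul] at hk₁p; exact h12 hk₁p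
  have hcomm : y * k₁ * y = k₁ := by
    apply hK.inj (P.conj_mem h hK hk₁) hk₁ h13 h14
    rw [mul_smul, mul_smul, P.y1, hk₁p, P.y2]
  have hyk : ∀ ω : Ω, y • k₁ • ω = k₁ • y • ω := by
    intro ω
    have e : y * k₁ = k₁ * y := by
      calc y * k₁ = (y * k₁ * y) * y := by rw [mul_assoc, P.yy h, mul_one]
        _ = k₁ * y := by rw [hcomm]
    rw [← mul_smul, e, mul_smul]
  haveI : Fact p.Prime := ⟨hp⟩
  have hord : orderOf k₁ = p := orderOf_eq_prime (hexp k₁ hk₁) hk₁1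
  by_contra hcon
  push Not at hcon
  have hp5 : 4 ≤ p := by
    have := hp.two_le
    by_contra hlt
    interval_cases p
    · exact hcon.1 rfl
    · exact hcon.2 rfl
  have hpow : ∀ i : ℕ, 0 < i → i < 4 → k₁ ^ i ≠ 1 := by
    intro i hi hi4 e
    have := orderOf_dvd_of_pow_eq_one e
    rw [hord] at this
    have := Nat.le_of_dvd hi this
    omega
  have hfix : ∀ i : ℕ, y • (k₁ ^ i • p1) = k₁ ^ i • p1 := by
    intro i
    induction i with
    | zero => simp [P.y1]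
    | succ i ih => rw [pow_succ', mul_smul, hyk, ih]
  have hne : ∀ i j : ℕ, i < j → j < 4 → k₁ ^ i • p1 ≠ k₁ ^ j • p1 := by
    intro i j hij hj e
    have e2 := hK.inj (K.pow_mem hk₁ i) (K.pow_mem hk₁ j) h13 h14 e
    apply hpow (j - i) (by omega) (by omega)
    have : k₁ ^ j = k₁ ^ i * k₁ ^ (j - i) := by rw [← pow_add]; congr 1; omega
    rw [this] at e2
    exact (mul_eq_left.mp e2.symm)
  apply P.y_ne
  exact h.sharp (a := k₁ ^ 0 • p1) (b := k₁ ^ 1 • p1) (c := k₁ ^ 2 • p1) (d := k₁ ^ 3 • p1)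
    ⟨hne 0 1 (by norm_num) (by norm_num), hne 0 2 (by norm_num) (by norm_num), hne 0 3 (by norm_num) (by norm_num),
      hne 1 2 (by norm_num) (by norm_num), hne 1 3 (by norm_num) (by norm_num), hne 2 3 (by norm_num) (by norm_num)⟩
    (hfix 0) (hfix 1) (hfix 2) (hfix 3)

theorem Pair.even_le (P : Pair x y p1 p2 p3 p4) (h : IsSharp4 G Ω) {K : Subgroup G} (hK : IsKer2 K p3 p4)
    (hexp : ∀ k ∈ K, k ^ 2 = 1) (hFixy : ∀ ω : Ω, y • ω = ω → ω = p1 ∨ ω = p2) :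
    (Set.univ : Set Ω).encard ≤ 6 := by
  obtain ⟨h12, h13, h14, h23, h24, h34⟩ := P.hD
  obtain ⟨k₁, hk₁, hk₁p⟩ := hK.trans p1 p2 h13 h14 h23 h24
  have hyy := P.yy h
  have hsq : ∀ k ∈ K, k * k = 1 := fun k hk => by rw [← sq]; exact hexp k hk
  have hC : ∀ k ∈ K, y * k * y = k → k = 1 ∨ k = k₁ := by
    intro k hk e
    have e2 : y * k = k * y := by
      calc y * k = (y * k * y) * y := by rw [mul_assoc, hyy, mul_one]
        _ = k * y := by rw [e]
    have e3 : y • k • p1 = k • p1 := by rw [← mul_smul, e2, mul_smul, P.y1]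
    rcases hFixy _ e3 with e4 | e4
    · left
      exact hK.inj hk K.one_mem h13 h14 (by rw [e4, one_smul])
    · right
      exact hK.inj hk hk₁ h13 h14 (by rw [e4, hk₁p])
  have hcm : ∀ k ∈ K, k * (y * k * y) ∈ K := fun k hk => K.mul_mem hk (P.conj_mem h hK hk)
  have hcinv : ∀ k ∈ K, y * (k * (y * k * y)) * y = k * (y * k * y) := by
    intro k hk
    have e1 : y * (k * (y * k * y)) * y = (y * k * y) * (k * (y * y)) := by simp only [mul_assoc]
    rw [e1, hyy, mul_one]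
    exact hK.comm _ (P.conj_mem h hK hk) _ hk
  have hc01 : ∀ k ∈ K, k * (y * k * y) = 1 ∨ k * (y * k * y) = k₁ := fun k hk => hC _ (hcm k hk) (hcinv k hk)
  have hc1 : ∀ k ∈ K, k * (y * k * y) = 1 → k = 1 ∨ k = k₁ := by
    intro k hk e
    apply hC k hk
    have e2 : y * k * y = k⁻¹ := (eq_inv_of_mul_eq_one_right e)
    rw [e2]
    exact inv_eq_of_mul_eq_one_left (hsq k hk)
  have hcmul : ∀ k ∈ K, ∀ k' ∈ K, (k * k') * (y * (k * k') * y) = (k * (y * k * y)) * (k' * (y * k' * y)) := by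
    intro k hk k' hk'
    have e1 : y * (k * k') * y = (y * k * y) * (y * k' * y) := by
      have : (y * k * y) * (y * k' * y) = y * k * (y * y) * k' * y := by simp only [mul_assoc]
      rw [this, hyy]; simp only [mul_assoc, mul_one]
    rw [e1]
    have e2 := hK.comm k' hk' _ (P.conj_mem h hK hk)
    calc k * k' * (y * k * y * (y * k' * y)) = k * (k' * (y * k * y)) * (y * k' * y) := by simp only [mul_assoc]
      _ = k * ((y * k * y) * k') * (y * k' * y) := by rw [e2]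
      _ = _ := by simp only [mul_assoc]
  obtain ⟨k₀, hk₀, hk₀c⟩ : ∃ k₀ ∈ K, ∀ k ∈ K, k * (y * k * y) = k₁ → k₀ * (y * k₀ * y) = k₁ := by
    by_cases hex : ∃ k₀ ∈ K, k₀ * (y * k₀ * y) = k₁
    · obtain ⟨k₀, hk₀, e⟩ := hex
      exact ⟨k₀, hk₀, fun _ _ _ => e⟩
    · push Not at hex
      exact ⟨1, K.one_mem, fun k hk e => absurd e (hex k hk)⟩
  have hsub : (Set.univ : Set Ω) ⊆ {p3, p4} ∪ {p1, p2, k₀ • p1, k₀ • p2} := by
    intro ω _
    by_cases h3 : ω = p3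
    · left; simp [h3]
    by_cases h4 : ω = p4
    · left; simp [h4]
    right
    obtain ⟨k, hk, hkω⟩ := hK.trans p1 ω h13 h14 h3 h4
    simp only [Set.mem_insert_iff, Set.mem_singleton_iff]
    rcases hc01 k hk with e | e
    · rcases hc1 k hk e with e2 | e2
      · left; rw [← hkω, e2, one_smul]
      · right; left; rw [← hkω, e2, hk₁p]
    · have e0 := hk₀c k hk e
      have e3 := hcmul k₀ hk₀ k hk
      rw [e0, e, hsq k₁ hk₁] at e3
      rcases hc1 _ (K.mul_mem hk₀ hk) e3 with e4 | e4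
      · right; right; left
        have : k = k₀ := by
          have e5 : k = k₀⁻¹ := eq_inv_of_mul_eq_one_right e4
          rw [e5]; exact inv_eq_of_mul_eq_one_left (hsq k₀ hk₀)
        rw [← hkω, this]
      · right; right; right
        have : k = k₀ * k₁ := by
          calc k = (k₀ * k₀) * k := by rw [hsq k₀ hk₀, one_mul]
            _ = k₀ * (k₀ * k) := by rw [mul_assoc]
            _ = k₀ * k₁ := by rw [e4]
        rw [← hkω, this, mul_smul, hk₁p]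
  calc (Set.univ : Set Ω).encard ≤ _ := Set.encard_le_encard hsub
    _ ≤ ({p3, p4} : Set Ω).encard + ({p1, p2, k₀ • p1, k₀ • p2} : Set Ω).encard := Set.encard_union_le _ _
    _ ≤ 2 + 4 := by
      gcongr
      · rw [Set.encard_pair h34]
      · exact four_le _ _ _ _
    _ = 6 := by norm_num

theorem Pair.fix_y_of_even (P : Pair x y p1 p2 p3 p4) (h : IsSharp4 G Ω) [Finite Ω] (heven : Even (Nat.card Ω))
    (ω : Ω) (hω : y • ω = ω) : ω = p1 ∨ ω = p2 := by
  by_contra hcon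
  push Not at hcon
  have hset : MulAction.fixedBy Ω y = {p1, p2, ω} := by
    ext z
    simp only [MulAction.mem_fixedBy, Set.mem_insert_iff, Set.mem_singleton_iff]
    constructor
    · intro hz
      by_contra hz'
      push Not at hz'
      exact P.y_ne (h.sharp (a := p1) (b := p2) (c := ω) (d := z)
        ⟨P.hD.1, hcon.1.symm, hz'.1.symm, hcon.2.symm, hz'.2.1.symm, hz'.2.2.symm⟩ P.y1 P.y2 hω hz)
    · rintro (rfl | rfl | rfl)
      · exact P.y1
      · exact P.y2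
      · exact hω
  have h1 := Cfsg.Agent.Lib.Helper29.Zass.card_fixedBy_modEq (Ω := Ω) (P.yy h)
  have h3 : ({p1, p2, ω} : Set Ω).ncard = 3 :=
    Set.ncard_eq_three.mpr ⟨p1, p2, ω, P.hD.1, hcon.1.symm, hcon.2.symm, rfl⟩
  rw [hset, Nat.card_coe_set_eq, h3] at h1
  have h4 : Nat.card Ω % 2 = 0 := Nat.even_iff.mp heven
  have h5 : Nat.card Ω % 2 = 3 % 2 := h1
  omega

end

theorem IsSharp4.finite_card (h : IsSharp4 G Ω) {p1 p2 p3 p4 : Ω} (hD : D4 p1 p2 p3 p4) :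
    Finite Ω ∧ Nat.card Ω ≤ 11 := by
  have henc : (Set.univ : Set Ω).encard ≤ ((11 : ℕ) : ℕ∞) := h.encard_le hD
  obtain ⟨hfin, hcard⟩ := Set.encard_le_coe_iff_finite_ncard_le.mp henc
  exact ⟨Set.finite_univ_iff.mp hfin, by rwa [Set.ncard_univ] at hcard⟩

theorem IsSharp4.even_card_le (h : IsSharp4 G Ω) [Finite Ω] {p1 p2 p3 p4 : Ω} (hD : D4 p1 p2 p3 p4)
    (heven : Even (Nat.card Ω)) : Nat.card Ω ≤ 6 := by
  obtain ⟨x, y, P⟩ := h.exists_pair hD
  obtain ⟨K, hK, p, j, hp, hcj, hexp⟩ := h.exists_ker2 hD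
  have hp2 : p = 2 := by
    have h1 : Even (p ^ j) := by
      rw [hcj] at heven
      exact (Nat.even_add.mp heven).mpr even_two
    exact hp.even_iff.mp (Nat.even_pow.mp h1).1
  subst hp2
  have henc : (Set.univ : Set Ω).encard ≤ ((6 : ℕ) : ℕ∞) := P.even_le h hK hexp (P.fix_y_of_even h heven)
  obtain ⟨_, hcard⟩ := Set.encard_le_coe_iff_finite_ncard_le.mp henc
  rwa [Set.ncard_univ] at hcard

theorem IsSharp4.card_mem (h : IsSharp4 G Ω) [Finite Ω] {p1 p2 p3 p4 : Ω} (hD : D4 p1 p2 p3 p4) :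
    Nat.card Ω = 4 ∨ Nat.card Ω = 5 ∨ Nat.card Ω = 6 ∨ Nat.card Ω = 11 := by
  obtain ⟨x, y, P⟩ := h.exists_pair hD
  obtain ⟨K, hK, p, j, hp, hcj, hexp⟩ := h.exists_ker2 hD
  have h11 := (h.finite_card hD).2
  have hev := h.even_card_le hD
  have h4 : 4 ≤ Nat.card Ω := by
    have hinj := hD.injective
    have := Nat.card_le_card_of_injective _ hinj
    simpa using this
  have hj : j < 4 := by
    by_contra hj
    push Not at hj
    have h1 : 2 ^ 4 ≤ p ^ j := (Nat.pow_le_pow_right (by norm_num) hj).trans (Nat.pow_le_pow_left hp.two_le j)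
    omega
  rcases P.char_le h hK hp hexp with rfl | rfl
  · interval_cases j
    · omega
    · left; omega
    · right; right; left; omega
    · have : Even (Nat.card Ω) := by rw [hcj]; decide
      have := hev this
      omega
  · interval_cases j
    · omega
    · right; left; omega
    · right; right; right; omega
    · omega

end Cfsg.Agent.Lib.Helper29.Sharp4
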