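import Mathlib
import Cfsg.Agent.Lib.Helper29.Sharp4b
import Cfsg.Agent.S0710

/-! Sharply `k`-transitive groups for `k ≥ 5`: reduction to point stabilisers. -/

set_option autoImplicit false

namespace Cfsg.Agent.Lib.Helper29.SharpK

open Cfsg.Agent.Lib.Helper29.Sharp4 MulAction SubMulAction

/-- sharply `k`-transitive action -/
structure IsSharp (G Ω : Type*) [Group G] [MulAction G Ω] (k : ℕ) : Prop where
  trans : MulAction.IsMultiplyPretransitive G Ω k
  sharp : ∀ x : Fin k ↪ Ω, MulAction.stabilizer G x = ⊥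

variable {G Ω : Type*} [Group G] [MulAction G Ω]

theorem IsSharp.stab [Finite Ω] {k : ℕ} (h : IsSharp G Ω (k + 1)) (hc : k + 1 ≤ Nat.card Ω) (a : Ω) :
    IsSharp (stabilizer G a) (ofStabilizer G a) k := by
  haveI := h.trans
  haveI : IsPretransitive G Ω := by
    rw [← is_one_pretransitive_iff]
    exact isMultiplyPretransitive_of_le (n := k + 1) (by omega) hc
  refine ⟨ofStabilizer.isMultiplyPretransitive.mp h.trans, ?_⟩
  intro x
  rw [eq_bot_iff]
  intro g hg
  rw [Subgroup.mem_bot]
  have h1 : (g : G) ∈ stabilizer G (ofStabilizer.snoc x) := by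
    rw [mem_stabilizer_iff]
    ext i
    rw [Function.Embedding.smul_apply]
    induction i using Fin.lastCases with
    | last => rw [ofStabilizer.snoc_last]; exact g.2
    | cast i =>
      rw [ofStabilizer.snoc_castSucc]
      have := congrArg (fun y : Fin k ↪ ofStabilizer G a => ((y i : ofStabilizer G a) : Ω)) (mem_stabilizer_iff.mp hg)
      exact this
  rw [h.sharp, Subgroup.mem_bot] at h1
  exact Subtype.ext h1

theorem IsSharp.card5 [Finite Ω] (h : IsSharp G Ω 5) (hc : 5 ≤ Nat.card Ω) :
    Nat.card Ω = 5 ∨ Nat.card Ω = 6 ∨ Nat.card Ω = 7 ∨ Nat.card Ω = 12 := by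
  haveI : Nonempty Ω := by
    by_contra hne
    rw [not_nonempty_iff] at hne
    rw [Nat.card_of_isEmpty] at hc
    omega
  obtain ⟨a⟩ := ‹Nonempty Ω›
  have h4 := h.stab hc a
  have hcard := nat_card_ofStabilizer_add_one_eq G a
  have h4' := isSharp4_of h4.trans h4.sharp
  haveI : Fintype (ofStabilizer G a) := Fintype.ofFinite _
  obtain ⟨x₀⟩ : Nonempty (Fin 4 ↪ ofStabilizer G a) :=
    Function.Embedding.nonempty_of_card_le (by
      rw [Fintype.card_fin, ← Nat.card_eq_fintype_card]; omega)
  have hne' : ∀ i j : Fin 4, i ≠ j → x₀ i ≠ x₀ j := fun i j hij e => hij (x₀.injective e)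
  have hD : D4 (x₀ 0) (x₀ 1) (x₀ 2) (x₀ 3) :=
    ⟨hne' _ _ (by decide), hne' _ _ (by decide), hne' _ _ (by decide), hne' _ _ (by decide), hne' _ _ (by decide),
      hne' _ _ (by decide)⟩
  have := h4'.card_mem hD
  omega

theorem IsSharp.card_group [Finite Ω] {k : ℕ} (h : IsSharp G Ω k) (hc : k ≤ Nat.card Ω) :
    Nat.card G = (Nat.card Ω).descFactorial k := by
  classical
  haveI : Fintype Ω := Fintype.ofFinite _
  obtain ⟨x₀⟩ : Nonempty (Fin k ↪ Ω) :=
    Function.Embedding.nonempty_of_card_le (by
      rw [Fintype.card_fin, ← Nat.card_eq_fintype_card]; omega)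
  haveI := h.trans
  have hbij : Function.Bijective (fun g : G => g • x₀) := by
    constructor
    · intro g g' hgg
      have h1 : g'⁻¹ * g ∈ stabilizer G x₀ := by
        rw [mem_stabilizer_iff, mul_smul]
        have : g • x₀ = g' • x₀ := hgg
        rw [this, inv_smul_smul]
      rw [h.sharp, Subgroup.mem_bot] at h1
      exact (inv_mul_eq_one.mp h1).symm
    · intro y
      exact MulAction.exists_smul_eq G x₀ y
  rw [Nat.card_congr (Equiv.ofBijective _ hbij), Nat.card_eq_fintype_card, Fintype.card_embedding_eq,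
    Fintype.card_fin, Nat.card_eq_fintype_card]

theorem IsSharp.card6 [Finite Ω] (h : IsSharp G Ω 6) (hc : 6 ≤ Nat.card Ω) :
    Nat.card Ω = 6 ∨ Nat.card Ω = 7 ∨ Nat.card Ω = 8 := by
  classical
  haveI : Nonempty Ω := by
    by_contra hne
    rw [not_nonempty_iff] at hne
    rw [Nat.card_of_isEmpty] at hc
    omega
  obtain ⟨a⟩ := ‹Nonempty Ω›
  have h5 := h.stab hc a
  have hcard := nat_card_ofStabilizer_add_one_eq G a
  have := h5.card5 (by omega)
  have h13 : Nat.card Ω ≠ 13 := by
    intro h13
    haveI : Fintype Ω := Fintype.ofFinite _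
    have hG := h.card_group hc
    rw [h13] at hG
    obtain ⟨x₀⟩ : Nonempty (Fin 6 ↪ Ω) :=
      Function.Embedding.nonempty_of_card_le (by
        rw [Fintype.card_fin, ← Nat.card_eq_fintype_card]; omega)
    have hinj : Function.Injective (MulAction.toPermHom G Ω) := by
      rw [injective_iff_map_eq_one]
      intro g hg
      have h1 : g ∈ stabilizer G x₀ := by
        rw [mem_stabilizer_iff]
        ext i
        rw [Function.Embedding.smul_apply]
        exact congrArg (fun σ : Equiv.Perm Ω => σ (x₀ i)) hg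
      rwa [h.sharp, Subgroup.mem_bot] at h1
    haveI := h.trans
    haveI : IsPretransitive G Ω := by
      rw [← is_one_pretransitive_iff]
      exact isMultiplyPretransitive_of_le (n := 6) (by omega) hc
    haveI : IsPretransitive (MulAction.toPermHom G Ω).range Ω := by
      constructor
      intro x y
      obtain ⟨g, hg⟩ := MulAction.exists_smul_eq G x y
      exact ⟨⟨MulAction.toPermHom G Ω g, g, rfl⟩, hg⟩
    refine Cfsg.Agent.S0710.result (α := Ω) (by rw [← Nat.card_eq_fintype_card, h13])
      (MulAction.toPermHom G Ω).range ?_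
    rw [← Nat.card_congr (MonoidHom.ofInjective hinj).toEquiv, hG]
    decide
  omega

theorem IsSharp.card_ge6 (k : ℕ) (hk : 6 ≤ k) : ∀ {G : Type*} {Ω : Type*} [Group G] [MulAction G Ω] [Finite Ω],
    IsSharp G Ω k → k ≤ Nat.card Ω →
    Nat.card Ω = k ∨ Nat.card Ω = k + 1 ∨ Nat.card Ω = k + 2 := by
  induction k, hk using Nat.le_induction with
  | base => intro G Ω _ _ _ h hc; exact h.card6 hc
  | succ k hk ih =>
    intro G Ω _ _ _ h hc
    haveI : Nonempty Ω := by
      by_contra hne
      rw [not_nonempty_iff] at hne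
      rw [Nat.card_of_isEmpty] at hc
      omega
    obtain ⟨a⟩ := ‹Nonempty Ω›
    have h5 := h.stab hc a
    have hcard := nat_card_ofStabilizer_add_one_eq G a
    have := ih h5 (by omega)
    omega

end Cfsg.Agent.Lib.Helper29.SharpK
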