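import Mathlib

/-! Zsigmondy's theorem via cyclotomic polynomials. -/

namespace Cfsg.Agent.Lib.Helper29.Zsig

open Polynomial

/-- value of the `n`-th cyclotomic polynomial at `a`. -/
noncomputable def Ph (n a : ℕ) : ℤ := (cyclotomic n ℤ).eval (a : ℤ)

theorem Ph_pos (n : ℕ) {a : ℕ} (ha : 1 < a) : 0 < Ph n a :=
  cyclotomic_pos' n (by exact_mod_cast ha)

theorem prod_Ph {n : ℕ} (a : ℕ) (hn : 0 < n) : ∏ d ∈ n.divisors, Ph d a = (a : ℤ) ^ n - 1 := by
  have := congrArg (eval (a : ℤ)) (prod_cyclotomic_eq_X_pow_sub_one hn ℤ)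
  simpa [eval_prod, Ph] using this

theorem Ph_dvd {n : ℕ} (a : ℕ) (hn : 0 < n) : Ph n a ∣ (a : ℤ) ^ n - 1 := by
  rw [← prod_Ph a hn]
  exact Finset.dvd_prod_of_mem _ (Nat.mem_divisors_self n hn.ne')

theorem Ph_dvd_geom {s k a : ℕ} (hs : 1 < s) (hk : 0 < k) (ha : 1 < a) :
    Ph (s * k) a ∣ ∑ i ∈ Finset.range s, ((a : ℤ) ^ k) ^ i := by
  have hn : 0 < s * k := Nat.mul_pos (by omega) hk
  have hsub : k.divisors ⊆ (s * k).divisors :=
    Nat.divisors_subset_of_dvd hn.ne' (Dvd.intro_left s rfl)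
  have h1 := Finset.prod_sdiff (f := fun d => Ph d a) hsub
  rw [prod_Ph a hn, prod_Ph a hk] at h1
  have h2 : ((a : ℤ) ^ k - 1) * ∑ i ∈ Finset.range s, ((a : ℤ) ^ k) ^ i = (a : ℤ) ^ (s * k) - 1 := by
    rw [mul_geom_sum, ← pow_mul, mul_comm k s]
  have h3 : ((a : ℤ) ^ k - 1) ≠ 0 := by
    have : (1 : ℤ) < (a : ℤ) ^ k := one_lt_pow₀ (by exact_mod_cast ha) hk.ne'
    omega
  have h4 : ∏ d ∈ (s * k).divisors \ k.divisors, Ph d a
      = ∑ i ∈ Finset.range s, ((a : ℤ) ^ k) ^ i := by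
    apply mul_left_cancel₀ h3
    rw [h2, ← h1, mul_comm]
  rw [← h4]
  apply Finset.dvd_prod_of_mem
  rw [Finset.mem_sdiff]
  refine ⟨Nat.mem_divisors_self _ hn.ne', ?_⟩
  intro hmem
  have := Nat.divisor_le hmem
  nlinarith

section prime

variable {r : ℕ} [Fact r.Prime]

theorem pow_eq_one {n a : ℕ} (hn : 0 < n) (hr : (r : ℤ) ∣ Ph n a) : (a : ZMod r) ^ n = 1 := by
  have h1 : (r : ℤ) ∣ (a : ℤ) ^ n - 1 := hr.trans (Ph_dvd a hn)
  have h2 := (ZMod.intCast_zmod_eq_zero_iff_dvd _ r).2 h1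
  push_cast at h2
  exact sub_eq_zero.1 h2

theorem dvd_of_pow_eq_one {s k a : ℕ} (hs : 1 < s) (hk : 0 < k) (ha : 1 < a)
    (hr : (r : ℤ) ∣ Ph (s * k) a) (h1 : (a : ZMod r) ^ k = 1) : r ∣ s := by
  have h2 := (ZMod.intCast_zmod_eq_zero_iff_dvd _ r).2 (hr.trans (Ph_dvd_geom hs hk ha))
  push_cast at h2
  rw [h1] at h2
  simp only [one_pow, Finset.sum_const, Finset.card_range, nsmul_eq_mul, mul_one] at h2
  exact (ZMod.natCast_eq_zero_iff s r).1 h2

theorem ne_zero' {n a : ℕ} (hn : 0 < n) (hr : (r : ℤ) ∣ Ph n a) : (a : ZMod r) ≠ 0 := by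
  intro h
  have := pow_eq_one hn hr
  rw [h, zero_pow hn.ne'] at this
  exact zero_ne_one this

/-- another prime divisor of `n` divides `r - 1`. -/
theorem dvd_sub_one {n a s : ℕ} (hn : 0 < n) (ha : 1 < a) (hr : (r : ℤ) ∣ Ph n a)
    (hs : s.Prime) (hsn : s ∣ n) (hne : s ≠ r) : s ∣ r - 1 := by
  have hd1 : orderOf (a : ZMod r) ∣ n := orderOf_dvd_of_pow_eq_one (pow_eq_one hn hr)
  have hd2 : orderOf (a : ZMod r) ∣ r - 1 := ZMod.orderOf_dvd_card_sub_one (ne_zero' hn hr)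
  by_cases hsd : s ∣ orderOf (a : ZMod r)
  · exact hsd.trans hd2
  · exfalso
    obtain ⟨k, rfl⟩ := hsn
    have hk : 0 < k := Nat.pos_of_mul_pos_left hn
    have hcop : Nat.Coprime (orderOf (a : ZMod r)) s :=
      ((Nat.Prime.coprime_iff_not_dvd hs).2 hsd).symm
    have hdk : orderOf (a : ZMod r) ∣ k := hcop.dvd_of_dvd_mul_left hd1
    have h1 : (a : ZMod r) ^ k = 1 := orderOf_dvd_iff_pow_eq_one.1 hdk
    have := dvd_of_pow_eq_one hs.one_lt hk ha hr h1
    exact hne ((Nat.prime_dvd_prime_iff_eq Fact.out hs).1 this).symm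

/-- a prime divisor of `Φ_n(a)` not dividing `n` is primitive. -/
theorem orderOf_eq {n a : ℕ} (hn : 0 < n) (ha : 1 < a) (hr : (r : ℤ) ∣ Ph n a)
    (hrn : ¬ r ∣ n) : orderOf (a : ZMod r) = n := by
  have hd1 : orderOf (a : ZMod r) ∣ n := orderOf_dvd_of_pow_eq_one (pow_eq_one hn hr)
  obtain ⟨e, he⟩ := hd1
  by_cases he1 : e = 1
  · rw [he1, mul_one] at he; exact he.symm
  · exfalso
    have hsp := Nat.minFac_prime he1
    obtain ⟨e', he'⟩ := Nat.minFac_dvd e
    have hn' : n = e.minFac * (orderOf (a : ZMod r) * e') := by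
      rw [he]; conv_lhs => rw [he']
      ring
    have hk : 0 < orderOf (a : ZMod r) * e' := by
      rw [hn'] at hn
      exact Nat.pos_of_mul_pos_left hn
    have h1 : (a : ZMod r) ^ (orderOf (a : ZMod r) * e') = 1 := by
      rw [pow_mul, pow_orderOf_eq_one, one_pow]
    rw [hn'] at hr
    have := dvd_of_pow_eq_one hsp.one_lt hk ha hr h1
    apply hrn
    rw [hn']
    exact this.trans (Dvd.intro _ rfl)

theorem primitive {n a : ℕ} (hn : 0 < n) (ha : 1 < a) (hr : (r : ℤ) ∣ Ph n a)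
    (hrn : ¬ r ∣ n) : ∀ k : ℕ, 0 < k → k < n → ¬ r ∣ a ^ k - 1 := by
  intro k hk hkn hdvd
  have h1 : (a : ZMod r) ^ k = 1 := by
    have h2 := (ZMod.natCast_eq_zero_iff _ r).2 hdvd
    rw [Nat.cast_sub (Nat.one_le_pow _ _ (by omega))] at h2
    push_cast at h2
    exact sub_eq_zero.1 h2
  have := orderOf_dvd_of_pow_eq_one h1
  rw [orderOf_eq hn ha hr hrn] at this
  exact absurd (Nat.le_of_dvd hk this) (by omega)

/-- for odd `r ∣ n` the square of `r` does not divide `Φ_n(a)`. -/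
theorem sq_not_dvd {n a : ℕ} (hn : 0 < n) (ha : 1 < a) (hr : (r : ℤ) ∣ Ph n a)
    (hrn : r ∣ n) (hodd : Odd r) : ¬ (r : ℤ) ^ 2 ∣ Ph n a := by
  have hrp : r.Prime := Fact.out
  intro hsq
  obtain ⟨k, rfl⟩ := hrn
  have hk : 0 < k := Nat.pos_of_mul_pos_left hn
  have h1 : (a : ZMod r) ^ k = 1 := by
    have h2 := pow_eq_one hn hr
    rw [mul_comm, pow_mul, ZMod.pow_card] at h2
    exact h2
  have h3 : (r : ℤ) ∣ (a : ℤ) ^ k - 1 := by
    rw [← ZMod.intCast_zmod_eq_zero_iff_dvd]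
    push_cast
    rw [h1, sub_self]
  obtain ⟨t, ht⟩ := h3
  have h4 := odd_sq_dvd_geom_sum₂_sub (R := ℤ) 1 t hodd
  simp only [one_pow, mul_one] at h4
  have h5 : (a : ℤ) ^ k = 1 + r * t := by linarith
  have h6 := hsq.trans (Ph_dvd_geom hrp.one_lt hk ha)
  rw [h5] at h6
  have h7 : (r : ℤ) ^ 2 ∣ (r : ℤ) := by
    have := dvd_sub h6 h4
    simpa using this
  have h8 : (r : ℤ) ^ 2 ≤ r := Int.le_of_dvd (by exact_mod_cast hrp.pos) h7
  have h9 : (2 : ℤ) ≤ r := by exact_mod_cast hrp.two_le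
  nlinarith

end prime

theorem cast_Ph (n q : ℕ) : ((Ph n q : ℤ) : ℝ) = (cyclotomic n ℝ).eval (q : ℝ) := by
  have := cyclotomic.eval_apply (q : ℤ) n (Int.castRingHom ℝ)
  simpa [Ph] using this.symm

theorem lower (n : ℕ) {q : ℕ} (hq : 1 < q) : ((q : ℤ) - 1) ^ n.totient ≤ Ph n q := by
  have h := sub_one_pow_totient_le_cyclotomic_eval (q := (q : ℝ)) (by exact_mod_cast hq) n
  rw [← cast_Ph] at h
  exact_mod_cast h

theorem lower_lt {n : ℕ} (hn : 2 ≤ n) {q : ℕ} (hq : 1 < q) :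
    ((q : ℤ) - 1) ^ n.totient < Ph n q := by
  have h := sub_one_pow_totient_lt_cyclotomic_eval (q := (q : ℝ)) hn (by exact_mod_cast hq)
  rw [← cast_Ph] at h
  exact_mod_cast h

theorem upper (n : ℕ) {q : ℕ} (hq : 1 < q) : Ph n q ≤ ((q : ℤ) + 1) ^ n.totient := by
  have h := cyclotomic_eval_le_add_one_pow_totient (q := (q : ℝ)) (by exact_mod_cast hq) n
  rw [← cast_Ph] at h
  exact_mod_cast h

theorem Ph_expand_dvd {r k : ℕ} (a : ℕ) (hr : r.Prime) (h : r ∣ k) :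
    Ph k (a ^ r) = Ph (k * r) a := by
  have := congrArg (eval (a : ℤ)) (cyclotomic_expand_eq_cyclotomic hr h ℤ)
  rw [expand_eval] at this
  simpa [Ph] using this

theorem Ph_expand_not_dvd {r k : ℕ} (a : ℕ) (hr : r.Prime) (h : ¬ r ∣ k) :
    Ph k (a ^ r) = Ph (k * r) a * Ph k a := by
  have := congrArg (eval (a : ℤ)) (cyclotomic_expand_eq_cyclotomic_mul hr h ℤ)
  rw [expand_eval, eval_mul] at this
  simpa [Ph] using this

theorem Ph_one (q : ℕ) : Ph 1 q = (q : ℤ) - 1 := by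
  simp [Ph, cyclotomic_one]

theorem ineq3 {a : ℕ} (ha : 3 ≤ a) : ∀ r : ℕ, 3 ≤ r → r * (a + 1) + 1 < a ^ r := by
  intro r hr
  induction r, hr using Nat.le_induction with
  | base => nlinarith [Nat.mul_le_mul ha ha]
  | succ r hr ih =>
    rw [pow_succ]
    nlinarith [Nat.mul_le_mul ha ha]

theorem ineq2 : ∀ r : ℕ, 4 ≤ r → r * (2 + 1) + 1 < 2 ^ r := by
  intro r hr
  induction r, hr using Nat.le_induction with
  | base => norm_num
  | succ r hr ih =>
    rw [pow_succ]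
    omega

theorem ineq {a r : ℕ} (ha : 2 ≤ a) (hr : 3 ≤ r) (h : ¬ (a = 2 ∧ r = 3)) :
    r * (a + 1) + 1 < a ^ r := by
  rcases Nat.lt_or_ge a 3 with h3 | h3
  · have : a = 2 := by omega
    subst this
    exact ineq2 r (by omega)
  · exact ineq3 h3 r hr

theorem zsigmondy (a n : ℕ) (ha : 1 < a) (hn : 1 < n) (h6 : ¬ (a = 2 ∧ n = 6))
    (h2 : ¬ (n = 2 ∧ ∃ m : ℕ, a + 1 = 2 ^ m)) :
    ∃ r : ℕ, r.Prime ∧ r ∣ a ^ n - 1 ∧ ∀ k : ℕ, 0 < k → k < n → ¬ r ∣ a ^ k - 1 := by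
  by_contra hcon
  push Not at hcon
  have hn0 : 0 < n := by omega
  obtain ⟨N, hN⟩ : ∃ N : ℕ, (N : ℤ) = Ph n a :=
    ⟨(Ph n a).toNat, Int.toNat_of_nonneg (Ph_pos n ha).le⟩
  have hdvd : ∀ r : ℕ, r ∣ N → (r : ℤ) ∣ Ph n a := fun r hr => by
    rw [← hN]; exact_mod_cast hr
  have hNdvd : N ∣ a ^ n - 1 := by
    have h1 := Ph_dvd a hn0 (n := n)
    rw [← hN] at h1
    have h2 : ((a ^ n - 1 : ℕ) : ℤ) = (a : ℤ) ^ n - 1 := by
      rw [Nat.cast_sub (Nat.one_le_pow _ _ (by omega))]; push_cast; ring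
    rw [← h2] at h1
    exact_mod_cast h1
  have key : ∀ r : ℕ, r.Prime → r ∣ N → r ∣ n := by
    intro r hr hrN
    haveI : Fact r.Prime := ⟨hr⟩
    by_contra hrn
    obtain ⟨k, hk0, hkn, hk⟩ := hcon r hr (hrN.trans hNdvd)
    exact primitive hn0 ha (hdvd r hrN) hrn k hk0 hkn hk
  have ha2 : (2 : ℤ) ≤ a := by exact_mod_cast ha
  have hN1 : 1 < N := by
    have h1 := lower_lt (n := n) hn ha
    have h2 : (1 : ℤ) ≤ ((a : ℤ) - 1) ^ n.totient := one_le_pow₀ (by linarith)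
    have : (1 : ℤ) < N := by rw [hN]; linarith
    exact_mod_cast this
  obtain ⟨r, hr, hrN⟩ := Nat.exists_prime_and_dvd (by omega : N ≠ 1)
  haveI : Fact r.Prime := ⟨hr⟩
  have hrn : r ∣ n := key r hr hrN
  have uniq : ∀ {s : ℕ}, s.Prime → s ∣ N → s = r := by
    intro s hs hsN
    by_contra hne
    haveI : Fact s.Prime := ⟨hs⟩
    have h1 := dvd_sub_one (r := r) hn0 ha (hdvd r hrN) hs (key s hs hsN) hne
    have h2 := dvd_sub_one (r := s) hn0 ha (hdvd s hsN) hr hrn (Ne.symm hne)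
    have h5 := hr.two_le
    have h6 := hs.two_le
    have h3 := Nat.le_of_dvd (by omega) h1
    have h4 := Nat.le_of_dvd (by omega) h2
    omega
  obtain ⟨e, hpow⟩ : ∃ e, N = r ^ e :=
    ⟨_, Nat.eq_prime_pow_of_unique_prime_dvd (by omega : N ≠ 0) uniq⟩
  rcases hr.eq_two_or_odd' with hr2 | hodd
  · -- r = 2
    have hn2 : ∀ {s : ℕ}, s.Prime → s ∣ n → s = 2 := by
      intro s hs hsn
      by_contra hne
      have h1 := dvd_sub_one (r := r) hn0 ha (hdvd r hrN) hs hsn (by rw [hr2]; exact hne)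
      rw [hr2] at h1
      have h3 := Nat.le_of_dvd (by norm_num) h1
      have h4 := hs.two_le
      omega
    obtain ⟨j, hnpow⟩ : ∃ j, n = 2 ^ j :=
      ⟨_, Nat.eq_prime_pow_of_unique_prime_dvd (by omega : n ≠ 0) hn2⟩
    obtain ⟨i, rfl⟩ : ∃ i, j = i + 1 := by
      rcases j with _ | i
      · rw [pow_zero] at hnpow; omega
      · exact ⟨i, rfl⟩
    have hval : Ph n a = 1 + (a : ℤ) ^ (2 ^ i) := by
      rw [hnpow, Ph, cyclotomic_prime_pow_eq_geom_sum Nat.prime_two]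
      simp [Finset.sum_range_succ]
    rcases Nat.eq_zero_or_pos i with hi0 | hi0
    · apply h2
      refine ⟨by rw [hnpow, hi0]; norm_num, e, ?_⟩
      have h3 : (N : ℤ) = 1 + a := by rw [hN, hval, hi0]; simp
      have h4 : N = 1 + a := by exact_mod_cast h3
      rw [← hr2, ← hpow]; omega
    · obtain ⟨i', rfl⟩ : ∃ i', i = i' + 1 := ⟨i - 1, by omega⟩
      obtain ⟨c, hc⟩ : ∃ c, c = a ^ (2 ^ i') := ⟨_, rfl⟩
      have hcN : N = 1 + c * c := by
        have h3 : (N : ℤ) = 1 + ((c * c : ℕ) : ℤ) := by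
          rw [hN, hval, hc]; push_cast; ring
        exact_mod_cast h3
      have hc2 : 2 ≤ c := by
        rw [hc]
        exact Nat.one_lt_pow (by positivity) ha
      have he2 : 2 ≤ e := by
        by_contra hlt
        have he1 : e ≤ 1 := by omega
        have h3 : r ^ e ≤ r ^ 1 := Nat.pow_le_pow_right hr.pos he1
        rw [← hpow, hr2] at h3
        nlinarith
      have h4 : 4 ∣ N := by
        rw [hpow, hr2]
        exact pow_dvd_pow 2 he2
      rw [hcN] at h4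
      have h7 := Nat.mod_lt c (by norm_num : 0 < 4)
      have h5 : (1 + c * c) % 4 = 0 := Nat.mod_eq_zero_of_dvd h4
      rw [Nat.add_mod, Nat.mul_mod] at h5
      interval_cases (c % 4) <;> simp at h5
  · -- r odd
    have hsq := sq_not_dvd hn0 ha (hdvd r hrN) hrn hodd
    have he1 : e = 1 := by
      rcases Nat.lt_or_ge e 2 with h | h
      · interval_cases e
        · rw [pow_zero] at hpow; omega
        · rfl
      · exfalso
        apply hsq
        rw [← hN, hpow]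
        have : r ^ 2 ∣ r ^ e := pow_dvd_pow r h
        exact_mod_cast this
    rw [he1, pow_one] at hpow
    have hPh : Ph n a = r := by rw [← hN, hpow]
    have hr3 : 3 ≤ r := by
      have := hr.two_le
      rcases hodd with ⟨m, hm⟩
      omega
    obtain ⟨k, hk⟩ := hrn
    have hk0 : 0 < k := by
      rcases Nat.eq_zero_or_pos k with h | h
      · subst h; omega
      · exact h
    have hnk : n = k * r := by rw [hk, mul_comm]
    have haR : 1 < a ^ r := Nat.one_lt_pow (by omega) ha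
    have ht : 0 < k.totient := Nat.totient_pos.2 hk0
    have hrr : (1 : ℤ) ≤ r := by exact_mod_cast hr.one_le
    by_cases hrk : r ∣ k
    · have h1 := Ph_expand_dvd a hr hrk
      rw [← hnk, hPh] at h1
      have hk2 : 2 ≤ k := by
        have := Nat.le_of_dvd hk0 hrk
        omega
      have h2' := lower_lt hk2 haR
      rw [h1] at h2'
      have h3 : (r : ℤ) ≤ ((a ^ r : ℕ) : ℤ) - 1 := by
        have : r < a ^ r := Nat.lt_pow_self ha
        have : (r : ℤ) < ((a ^ r : ℕ) : ℤ) := by exact_mod_cast this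
        linarith
      have h4 : ((a ^ r : ℕ) : ℤ) - 1 ≤ (((a ^ r : ℕ) : ℤ) - 1) ^ k.totient :=
        le_self_pow₀ (by linarith) ht.ne'
      linarith
    · have h1 := Ph_expand_not_dvd a hr hrk
      rw [← hnk, hPh] at h1
      have hlo := lower k haR
      have hup := upper k ha
      rw [h1] at hlo
      by_cases hex : a = 2 ∧ r = 3
      · obtain ⟨ha', hr3'⟩ := hex
        subst ha'
        rw [hr3'] at hlo h1
        norm_num at hlo hup
        have ht1 : k.totient = 1 := by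
          by_contra hne
          obtain ⟨t', ht'⟩ : ∃ t', k.totient = t' + 2 := ⟨k.totient - 2, by omega⟩
          rw [ht'] at hlo hup
          have h3 : (3 : ℤ) ^ t' ≤ 7 ^ t' := pow_le_pow_left₀ (by norm_num) (by norm_num) t'
          have h4 : (0 : ℤ) < 3 ^ t' := by positivity
          rw [pow_add] at hlo hup
          nlinarith
        rcases Nat.totient_eq_one_iff.1 ht1 with hk1 | hk2
        · rw [hk1, Ph_one, Ph_one] at h1
          norm_num at h1
        · apply h6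
          refine ⟨rfl, ?_⟩
          rw [hnk, hk2, hr3']
      · have hin := ineq (by omega) hr3 hex
        have hA : (r : ℤ) * ((a : ℤ) + 1) < ((a ^ r : ℕ) : ℤ) - 1 := by
          have : ((r * (a + 1) + 1 : ℕ) : ℤ) < ((a ^ r : ℕ) : ℤ) := by exact_mod_cast hin
          push_cast at this ⊢
          linarith
        have h5 : ((r : ℤ) * ((a : ℤ) + 1)) ^ k.totient < (((a ^ r : ℕ) : ℤ) - 1) ^ k.totient :=
          pow_lt_pow_left₀ hA (by positivity) ht.ne'
        have h6' : (r : ℤ) * ((a : ℤ) + 1) ^ k.totient ≤ ((r : ℤ) * ((a : ℤ) + 1)) ^ k.totient := by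
          rw [mul_pow]
          exact mul_le_mul_of_nonneg_right (le_self_pow₀ hrr ht.ne') (by positivity)
        have h7 : (r : ℤ) * Ph k a ≤ (r : ℤ) * ((a : ℤ) + 1) ^ k.totient :=
          mul_le_mul_of_nonneg_left hup (by positivity)
        linarith

end Cfsg.Agent.Lib.Helper29.Zsig
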